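import Mathlib

/-!
Commutative algebra for Lang's theorem (owner: helper32): an integral endomorphism of a noetherian domain is
injective; extension of points from a subalgebra of finite type.
-/

set_option autoImplicit false

namespace Cfsg.Agent.Lang

section Integral

variable {A B : Type*} [CommRing A] [CommRing B] [IsDomain B]

/-- Below a nonzero element of an integral extension there is a nonzero element of the base. -/
theorem exists_dvd_of_isIntegralElem (f : A →+* B) {r : B} (hr : r ≠ 0) (h : f.IsIntegralElem r) :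
    ∃ a : A, f a ≠ 0 ∧ r ∣ f a := by
  classical
  obtain ⟨p, hp, he⟩ := h
  suffices key : ∀ (n : ℕ) (p : Polynomial A), p.natDegree ≤ n → p.eval₂ f r = 0 → (∃ i, f (p.coeff i) ≠ 0) →
      ∃ a : A, f a ≠ 0 ∧ r ∣ f a by
    refine key _ p le_rfl he ⟨p.natDegree, ?_⟩
    rw [hp.coeff_natDegree, map_one]
    exact one_ne_zero
  intro n
  induction n with
  | zero =>
    intro p hn he ⟨i, hi⟩
    rw [Polynomial.eq_C_of_natDegree_le_zero hn] at he hi
    rw [Polynomial.eval₂_C] at he
    rcases eq_or_ne i 0 with rfl | h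
    · rw [Polynomial.coeff_C_zero] at hi
      exact absurd he hi
    · rw [Polynomial.coeff_C, if_neg h, map_zero] at hi
      exact absurd rfl hi
  | succ n ih =>
    intro p hn he ⟨i, hi⟩
    have hsplit : p.eval₂ f r = (p.divX).eval₂ f r * r + f (p.coeff 0) := by
      conv_lhs => rw [← Polynomial.divX_mul_X_add p]
      rw [Polynomial.eval₂_add, Polynomial.eval₂_mul_X, Polynomial.eval₂_C]
    by_cases h0 : f (p.coeff 0) = 0
    · refine ih p.divX ?_ ?_ ?_
      · rw [Polynomial.natDegree_divX_eq_natDegree_tsub_one]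
        omega
      · rw [hsplit, h0, add_zero] at he
        exact (mul_eq_zero.1 he).resolve_right hr
      · rcases i with _ | i
        · exact absurd h0 hi
        · exact ⟨i, by rwa [Polynomial.coeff_divX]⟩
    · refine ⟨p.coeff 0, h0, ⟨-(p.divX).eval₂ f r, ?_⟩⟩
      rw [hsplit] at he
      linear_combination he

end Integral

section Endo

variable {k R : Type*} [Field k] [CommRing R] [IsDomain R] [IsNoetherianRing R] [Algebra k R]

omit [IsDomain R] [IsNoetherianRing R] in
theorem pow_isIntegral (ψ : R →ₐ[k] R) (hψ : ψ.toRingHom.IsIntegral) :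
    ∀ m : ℕ, (ψ ^ m).toRingHom.IsIntegral
  | 0 => fun x => ⟨Polynomial.X - Polynomial.C x, Polynomial.monic_X_sub_C x, by simp⟩
  | m + 1 => by
    have h := RingHom.IsIntegral.trans ψ.toRingHom (ψ ^ m).toRingHom hψ (pow_isIntegral ψ hψ m)
    have e : ((ψ ^ m).toRingHom.comp ψ.toRingHom) = (ψ ^ (m + 1)).toRingHom := by
      ext x
      rw [pow_succ]
      rfl
    rwa [e] at h

/-- An integral endomorphism of a noetherian domain is injective. -/
theorem endo_injective (ψ : R →ₐ[k] R) (hψ : ψ.toRingHom.IsIntegral) : Function.Injective ψ := by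
  classical
  let K : ℕ →o Ideal R :=
    ⟨fun m => RingHom.ker (ψ ^ m).toRingHom, monotone_nat_of_le_succ fun m x hx => by
      rw [RingHom.mem_ker] at hx ⊢
      show (ψ ^ (m + 1)) x = 0
      rw [pow_succ', AlgHom.mul_apply]
      change (ψ ^ m) x = 0 at hx
      rw [hx, map_zero]⟩
  obtain ⟨m, hm⟩ := monotone_stabilizes_iff_noetherian.2 ‹IsNoetherianRing R› K
  refine (injective_iff_map_eq_zero ψ).2 fun r hr => ?_
  by_contra hr0
  obtain ⟨a, ha, c, hc⟩ := exists_dvd_of_isIntegralElem (ψ ^ m).toRingHom hr0 (pow_isIntegral ψ hψ m r)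
  refine ha ?_
  have h1 : a ∈ K (m + 1) := by
    show (ψ ^ (m + 1)) a = 0
    rw [pow_succ', AlgHom.mul_apply]
    change (ψ ^ m) a = r * c at hc
    rw [hc, map_mul, hr, zero_mul]
  rwa [← hm (m + 1) (Nat.le_succ m)] at h1

end Endo

section Extend

variable {k T : Type*} [Field k] [IsAlgClosed k] [CommRing T] [IsDomain T] [Algebra k T]

open Polynomial in
/-- One step: the points of `A` off some `h ≠ 0` extend to `A[x]` off a given `g ≠ 0`. -/
theorem exists_extend_one (A : Subalgebra k T) (x : T) {g : T} (hg : g ≠ 0)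
    (hgmem : g ∈ Algebra.adjoin A {x}) :
    ∃ h : A, h ≠ 0 ∧ ∀ χ : A →ₐ[k] k, χ h ≠ 0 → ∃ χ' : (Algebra.adjoin A {x}).restrictScalars k →ₐ[k] k,
      (∀ a : A, ∀ ha : (a : T) ∈ (Algebra.adjoin A {x}).restrictScalars k, χ' ⟨a, ha⟩ = χ a) ∧
        χ' ⟨g, hgmem⟩ ≠ 0 := by
  classical
  set A' := (Algebra.adjoin A {x}).restrictScalars k
  have hrange : ∀ z : T, z ∈ Algebra.adjoin A {x} ↔ ∃ f : Polynomial A, aeval x f = z := fun z => by
    rw [Algebra.adjoin_singleton_eq_range_aeval]
    rfl
  obtain ⟨G, hG⟩ := (hrange g).1 hgmem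
  -- a point of `A` and a root compatible with all relations give a point of `A'`
  have build : ∀ (χ : A →ₐ[k] k) (z : k),
      (∀ f : Polynomial A, aeval x f = 0 → (f.map χ.toRingHom).eval z = 0) →
      ∃ χ' : A' →ₐ[k] k, (∀ a : A, ∀ ha : (a : T) ∈ A', χ' ⟨a, ha⟩ = χ a) ∧
        ∀ f : Polynomial A, ∀ hf : aeval x f ∈ A', χ' ⟨aeval x f, hf⟩ = (f.map χ.toRingHom).eval z := by
    intro χ z hz
    choose rep hrep using fun w : A' => (hrange w.1).1 w.2
    have key : ∀ f : Polynomial A, ∀ w : A', aeval x f = w.1 →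
        ((rep w).map χ.toRingHom).eval z = (f.map χ.toRingHom).eval z := fun f w hf => by
      have := hz (rep w - f) (by rw [map_sub, hrep, hf, sub_self])
      rwa [Polynomial.map_sub, Polynomial.eval_sub, sub_eq_zero] at this
    let χ' : A' →ₐ[k] k :=
      { toFun := fun w => ((rep w).map χ.toRingHom).eval z
        map_one' := by rw [key 1 1 (by simp)]; simp
        map_mul' := fun v w => by
          rw [key (rep v * rep w) (v * w) (by rw [map_mul, hrep, hrep]; rfl)]; simp
        map_zero' := by rw [key 0 0 (by simp)]; simp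
        map_add' := fun v w => by
          rw [key (rep v + rep w) (v + w) (by rw [map_add, hrep, hrep]; rfl)]; simp
        commutes' := fun c => by
          show ((rep (algebraMap k A' c)).map χ.toRingHom).eval z = _
          rw [key (C (algebraMap k A c)) (algebraMap k A' c) (by rw [aeval_C]; rfl)]
          simp }
    refine ⟨χ', fun a ha => ?_, fun f hf => key f ⟨_, hf⟩ rfl⟩
    show ((rep ⟨a, ha⟩).map χ.toRingHom).eval z = χ a
    rw [key (C a) ⟨a, ha⟩ (by rw [aeval_C]; rfl)]
    simp
  by_cases htr : ∀ f : Polynomial A, aeval x f = 0 → f = 0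
  · -- transcendental
    have hG0 : G ≠ 0 := fun h => hg (by rw [← hG, h, map_zero])
    refine ⟨G.leadingCoeff, leadingCoeff_ne_zero.2 hG0, fun χ hχ => ?_⟩
    have hGm : G.map χ.toRingHom ≠ 0 := fun h => hχ (by
      have := congrArg (fun f => Polynomial.coeff f G.natDegree) h
      simpa [Polynomial.coeff_map] using this)
    obtain ⟨z, hz⟩ := Infinite.exists_notMem_finset (G.map χ.toRingHom).roots.toFinset
    obtain ⟨χ', h1, h2⟩ := build χ z fun f hf => by rw [htr f hf]; simp
    refine ⟨χ', h1, fun h0 => hz ?_⟩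
    have h3 := h2 G (hG ▸ hgmem)
    have e : (⟨aeval x G, hG ▸ hgmem⟩ : A') = ⟨g, hgmem⟩ := Subtype.ext hG
    rw [e, h0] at h3
    rw [Multiset.mem_toFinset, mem_roots hGm]
    exact h3.symm
  · -- algebraic
    push Not at htr
    have hex : ∃ n, ∃ f : Polynomial A, aeval x f = 0 ∧ f ≠ 0 ∧ f.natDegree = n := by
      obtain ⟨f, h1, h2⟩ := htr
      exact ⟨_, f, h1, h2, rfl⟩
    obtain ⟨p, hp, hp0, hpn⟩ := Nat.find_spec hex
    have hmin : ∀ f : Polynomial A, aeval x f = 0 → f ≠ 0 → p.natDegree ≤ f.natDegree := fun f h1 h2 => by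
      rw [hpn]
      exact Nat.find_le ⟨f, h1, h2, rfl⟩
    have hdeg : 0 < p.natDegree := by
      by_contra h
      rw [Polynomial.eq_C_of_natDegree_le_zero (not_lt.1 h)] at hp hp0
      rw [aeval_C] at hp
      exact hp0 (by rw [Subtype.ext hp (a2 := (0 : A)), map_zero])
    set l := p.leadingCoeff
    have hl : l ≠ 0 := leadingCoeff_ne_zero.2 hp0
    -- a multiple of `g` in `A`
    have hrel : ∀ (n : ℕ) (f : Polynomial A), f.natDegree ≤ n → aeval x f = 0 →
        ∃ m : ℕ, p ∣ C l ^ m * f := by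
      intro n
      induction n with
      | zero =>
        intro f hn hf
        refine ⟨0, ?_⟩
        by_cases h0 : f = 0
        · simp [h0]
        · have := hmin f hf h0
          omega
      | succ n ih =>
        intro f hn hf
        by_cases h0 : f = 0
        · exact ⟨0, by simp [h0]⟩
        have hpf := hmin f hf h0
        let f' := C l * f - C f.leadingCoeff * X ^ (f.natDegree - p.natDegree) * p
        have hf'0 : aeval x f' = 0 := by simp [f', hf, hp]
        have hdeg' : f'.natDegree ≤ n := by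
          rw [Polynomial.natDegree_le_iff_coeff_eq_zero]
          intro i hi
          rcases lt_or_ge f.natDegree i with h | h
          · have h1 : f.coeff i = 0 := coeff_eq_zero_of_natDegree_lt h
            simp only [f', coeff_sub, coeff_C_mul, mul_assoc, coeff_X_pow_mul', h1, mul_zero, zero_sub,
              neg_eq_zero]
            rw [if_pos (by omega), coeff_eq_zero_of_natDegree_lt (p := p) (by omega), mul_zero]
          · obtain rfl : i = f.natDegree := by omega
            simp only [f', coeff_sub, coeff_C_mul, mul_assoc, coeff_X_pow_mul']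
            rw [if_pos (Nat.sub_le _ _), Nat.sub_sub_self hpf, coeff_natDegree, coeff_natDegree]
            ring
        obtain ⟨m, hm⟩ := ih f' hdeg' hf'0
        refine ⟨m + 1, ?_⟩
        have e : C l ^ (m + 1) * f = C l ^ m * f' + C l ^ m * (C f.leadingCoeff * X ^ (f.natDegree - p.natDegree)) * p := by
          simp [f', pow_succ]; ring
        rw [e]
        exact dvd_add hm (dvd_mul_left _ _)
    -- the norm-like element
    obtain ⟨c, hc0, S, hS⟩ : ∃ c : A, c ≠ 0 ∧ ∃ S : Polynomial A, aeval x (G * S) = (c : T) := by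
      have halg : IsAlgebraic A g :=
        Algebra.isAlgebraic_adjoin_singleton_iff.mpr ⟨p, hp0, hp⟩ _ hgmem
      obtain ⟨t, ht, c, hc, e⟩ := halg.exists_nonzero_eq_adjoin_mul (mem_nonZeroDivisors_of_ne_zero hg)
      have ht' : t ∈ Algebra.adjoin A {x} :=
        Algebra.adjoin_le (Set.singleton_subset_iff.2 hgmem) ht
      obtain ⟨S, hS⟩ := (hrange t).1 ht'
      exact ⟨c, hc, S, by rw [map_mul, hG, hS, e]; rfl⟩
    refine ⟨l * c, mul_ne_zero hl hc0, fun χ hχ => ?_⟩
    rw [map_mul, mul_ne_zero_iff] at hχ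
    have hdegm : (p.map χ.toRingHom).degree ≠ 0 := by
      rw [degree_map_eq_of_leadingCoeff_ne_zero _ hχ.1, degree_eq_natDegree hp0]
      exact_mod_cast hdeg.ne'
    obtain ⟨z, hz⟩ := IsAlgClosed.exists_root _ hdegm
    obtain ⟨χ', h1, h2⟩ := build χ z fun f hf => by
      obtain ⟨m, s, hs⟩ := hrel _ f le_rfl hf
      have := congrArg (fun P => (Polynomial.map χ.toRingHom P).eval z) hs
      simp only [Polynomial.map_mul, Polynomial.map_pow, map_C, eval_mul, eval_pow, eval_C] at this
      rw [hz.eq_zero, zero_mul] at this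
      exact (mul_eq_zero.1 this).resolve_left (pow_ne_zero _ hχ.1)
    refine ⟨χ', h1, fun h0 => hχ.2 ?_⟩
    have hmemc : (c : T) ∈ A' := (Algebra.adjoin A {x}).algebraMap_mem c
    have hmemS : aeval x S ∈ A' := (hrange _).2 ⟨S, rfl⟩
    have e : (⟨(c : T), hmemc⟩ : A') = (⟨g, hgmem⟩ : A') * ⟨aeval x S, hmemS⟩ := Subtype.ext (by
      show (c : T) = g * aeval x S
      rw [← hS, map_mul, hG])
    rw [← h1 c hmemc, e, map_mul, h0, zero_mul]

/-- One step, for a subalgebra `B` of `A[x]`. -/
theorem exists_extend_le (A B : Subalgebra k T) (x : T)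
    (hle : B ≤ (Algebra.adjoin A {x}).restrictScalars k) (g : B) (hg : g ≠ 0) :
    ∃ h : A, h ≠ 0 ∧ ∀ χ : A →ₐ[k] k, χ h ≠ 0 →
      ∃ χ' : B →ₐ[k] k, χ' g ≠ 0 ∧ ∀ a : A, ∀ ha : (a : T) ∈ B, χ' ⟨a, ha⟩ = χ a := by
  have hg' : (g : T) ≠ 0 := fun h => hg (Subtype.ext h)
  obtain ⟨h, hh, hext⟩ := exists_extend_one A x hg' (hle g.2)
  refine ⟨h, hh, fun χ hχ => ?_⟩
  obtain ⟨χ', ha, hgne⟩ := hext χ hχ
  exact ⟨χ'.comp (Subalgebra.inclusion hle), hgne, fun a hab => ha a (hle hab)⟩

omit [IsAlgClosed k] [IsDomain T] in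
theorem le_adjoin_singleton (A : Subalgebra k T) (x : T) :
    A ≤ (Algebra.adjoin A {x}).restrictScalars k := fun a ha =>
  (Subalgebra.mem_restrictScalars k).2 ((Algebra.adjoin A {x}).algebraMap_mem ⟨a, ha⟩)

omit [IsAlgClosed k] [IsDomain T] in
theorem self_mem_adjoin_singleton (A : Subalgebra k T) (x : T) :
    x ∈ (Algebra.adjoin A {x}).restrictScalars k :=
  (Subalgebra.mem_restrictScalars k).2 (Algebra.self_mem_adjoin_singleton A x)

end Extend

end Cfsg.Agent.Lang
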