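import Cfsg.Agent.Lang.Twist
import Cfsg.Agent.ChevGrp.Bridge
import Cfsg.Agent.ChevGrp.FieldAut
import Cfsg.Agent.ChevGrp.Longest
import Cfsg.Agent.ChevGrp.Torus

/-!
Lang's theorem for the Chevalley groups over an algebraically closed field (owner: helper32).
-/

set_option autoImplicit false

namespace Cfsg.Agent.Lang

open Cfsg.Lie Cfsg.Agent.ChevGrp

variable {D : ChevalleyDatum}

/-- The root element with the parameter as an indeterminate. -/
noncomputable def xPoly (D : ChevalleyDatum) (r : Fin D.nroots) : Matrix D.Idx D.Idx (Polynomial ℤ) :=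
  Matrix.of fun row col =>
    match col with
    | Sum.inl i =>
      (match row with
       | Sum.inl i' => if i' = i then 1 else 0
       | Sum.inr u => if u = r then - (((D.cartanSR.getD i.val #[]).getD r.val 0 : ℤ) : Polynomial ℤ) * Polynomial.X else 0)
    | Sum.inr s =>
      if s = r then (match row with | Sum.inr u => if u = r then 1 else 0 | Sum.inl _ => 0)
      else if s.val = D.negIdx.getD r.val 0 then
        (match row with
         | Sum.inl i => (((D.coroot.getD r.val #[]).getD i.val 0 : ℤ) : Polynomial ℤ) * Polynomial.X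
         | Sum.inr u => if u = s then 1 else if u = r then -(Polynomial.X ^ 2) else 0)
      else
        (match row with
         | Sum.inl _ => 0
         | Sum.inr u => (if u = s then 1 else 0) +
             ((D.chainCoeff r.val s.val u.val).map fun km => ((km.2 : ℤ) : Polynomial ℤ) * Polynomial.X ^ km.1).sum)

theorem xPoly_map {F : Type*} [Field F] (r : Fin D.nroots) (t : F) :
    (xPoly D r).map (Polynomial.aeval t) = D.xMat F r t := by
  ext row col
  simp only [Matrix.map_apply, xPoly, ChevalleyDatum.xMat, Matrix.of_apply]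
  have hsum : ∀ L : List (ℕ × ℤ), Polynomial.aeval t (L.map fun km => ((km.2 : ℤ) : Polynomial ℤ) * Polynomial.X ^ km.1).sum =
      (L.map fun km => ((km.2 : ℤ) : F) * t ^ km.1).sum := fun L => by
    induction L with
    | nil => simp
    | cons a L ih => simp [ih]
  rcases col with i | s <;> rcases row with i' | u <;> simp only <;> (try split_ifs) <;>
    simp [hsum]

section Word

variable {k : Type*} [Field k] {len : ℕ → ℕ}

/-- A product of at most `n` root elements. -/
def InWord (hS : Rules D k) (n : ℕ) (g : GL D.Idx k) : Prop :=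
  ∃ ts : List (Fin D.nroots × k), ts.length ≤ n ∧ g = (ts.map fun p => (glSys hS).x p.1 p.2).prod

theorem InWord.mul {hS : Rules D k} {m n : ℕ} {g h : GL D.Idx k} (hg : InWord hS m g) (hh : InWord hS n h) :
    InWord hS (m + n) (g * h) := by
  obtain ⟨a, ha, rfl⟩ := hg
  obtain ⟨b, hb, rfl⟩ := hh
  exact ⟨a ++ b, by rw [List.length_append]; omega, by rw [List.map_append, List.prod_append]⟩

theorem inWord_x (hS : Rules D k) {r : ℕ} (hr : r < D.nroots) (t : k) : InWord hS 1 ((glSys hS).x r t) :=
  ⟨[(⟨r, hr⟩, t)], by simp, by simp⟩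

theorem inWord_nEl (hS : Rules D k) (hR : RootTable D len) {r : ℕ} (hr : r < D.nroots) (t : k) :
    InWord hS 3 ((glSys hS).nEl r t) :=
  ((inWord_x hS hr t).mul (inWord_x hS (hR.neg_lt r hr) (-t⁻¹))).mul (inWord_x hS hr t)

theorem inWord_nW (hS : Rules D k) (hR : RootTable D len) :
    ∀ w : List (Fin D.rank), InWord hS (3 * w.length) ((glSys hS).nW w)
  | [] => ⟨[], by simp, by simp [Sys.nW_nil]⟩
  | i :: w => by
    rw [(glSys hS).nW_cons, List.length_cons, Nat.mul_succ, Nat.add_comm]
    exact (inWord_nEl hS hR (hR.simple_lt i i.2) 1).mul (inWord_nW hS hR w)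

theorem inWord_Ubar (hS : Rules D k) (hR : RootTable D len) {u : GL D.Idx k} (hu : u ∈ (glSys hS).Ubar) :
    InWord hS D.nroots u := by
  classical
  obtain ⟨L, hL⟩ := hR.posSet_closed.exists_enum
  obtain ⟨t, rfl⟩ := (glSys hS).exists_coef hR hR.posSet_closed hL hu
  refine ⟨L.attach.map fun r => (⟨r.1, ((hL.2 r.1).1 r.2).1⟩, t r.1), ?_, ?_⟩
  · rw [List.length_map, List.length_attach]
    have : L.toFinset ⊆ Finset.range D.nroots := fun r hr =>
      Finset.mem_range.2 ((hL.2 r).1 (List.mem_toFinset.1 hr)).1
    have h2 := Finset.card_le_card this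
    rwa [List.toFinset_card_of_nodup hL.1, Finset.card_range] at h2
  · rw [List.map_map]
    show (L.map fun r => (glSys hS).x r (t r)).prod = _
    conv_lhs => rw [← List.attach_map_subtype_val L, List.map_map]
    rfl

theorem inWord_Hbar (hS : Rules D k) (hR : RootTable D len) {h : GL D.Idx k} (hh : h ∈ (glSys hS).Hbar) :
    InWord hS (6 * D.rank) h := by
  classical
  rw [← (glSys hS).tau_range hS hR (glSys_HMul hS hR)] at hh
  obtain ⟨c, rfl⟩ := hh
  have key : ∀ s : Finset (Fin D.rank), InWord hS (6 * s.card)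
      ((glSys hS).tau hS hR (glSys_HMul hS hR) (∏ i ∈ s, Pi.mulSingle i (c i))) := fun s => by
    induction s using Finset.induction_on with
    | empty => exact ⟨[], by simp, by simp⟩
    | insert i s hi ih =>
      rw [Finset.prod_insert hi, map_mul, Finset.card_insert_of_notMem hi, Nat.mul_succ, Nat.add_comm]
      refine InWord.mul (m := 6) ?_ ih
      rw [Sys.tau, MonoidHom.noncommPiCoprod_mulSingle]
      exact (inWord_nEl hS hR (hR.simple_lt i i.2) _).mul (inWord_nEl hS hR (hR.simple_lt i i.2) (-1))
  have := key Finset.univ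
  rwa [Finset.univ_prod_mulSingle, Finset.card_univ, Fintype.card_fin] at this

/-- The number of root elements needed for an element of the group. -/
def wordBound (D : ChevalleyDatum) : ℕ := 5 * D.nroots + 6 * D.rank

theorem inWord_Gbar (hS : Rules D k) (hR : RootTable D len) {g : GL D.Idx k} (hg : g ∈ (glSys hS).Gbar) :
    InWord hS (wordBound D) g := by
  classical
  obtain ⟨b, hb, w, hw, v, hv, rfl⟩ := (glSys hS).mem_NF hS hR hg
  obtain ⟨u, hu, h, hh, rfl⟩ := ((glSys hS).mem_Bbar hS hR).1 hb
  have hv' : v ∈ (glSys hS).Ubar := (glSys hS).US_mono (fun r hr => hr.1) hv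
  have hlen : w.length ≤ D.nroots := by
    rw [← hw, invCount_eq]
    refine (Finset.card_le_card (t := Finset.range D.nroots) fun r hr => ?_).trans (Finset.card_range _).le
    exact Finset.mem_range.2 ((mem_invFin D w r).1 hr).1.1
  obtain ⟨ts, hts, e⟩ := (((inWord_Ubar hS hR hu).mul (inWord_Hbar hS hR hh)).mul (inWord_nW hS hR w)).mul
    (inWord_Ubar hS hR hv')
  exact ⟨ts, hts.trans (by unfold wordBound; omega), e⟩

theorem glSys_x_zero (hS : Rules D k) (r : Fin D.nroots) : (glSys hS).x r (0 : k) = 1 :=
  (glSys hS).x_zero r.2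

/-- The full product with parameters `t`. -/
noncomputable def fullWord (hS : Rules D k) {K : ℕ} (t : Fin K × Fin D.nroots → k) : GL D.Idx k :=
  ((List.finRange K).map fun j =>
    ((List.finRange D.nroots).map fun r : Fin D.nroots => (glSys hS).x (r : ℕ) (t (j, r))).prod).prod

theorem fullWord_mem (hS : Rules D k) {K : ℕ} (t : Fin K × Fin D.nroots → k) :
    fullWord hS t ∈ (glSys hS).Gbar := by
  refine Subgroup.list_prod_mem _ fun y hy => ?_
  obtain ⟨j, -, rfl⟩ := List.mem_map.1 hy
  refine Subgroup.list_prod_mem _ fun z hz => ?_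
  obtain ⟨r, -, rfl⟩ := List.mem_map.1 hz
  exact Subgroup.subset_closure ⟨r, r.2, _, rfl⟩

theorem block_single (hS : Rules D k) {r : Fin D.nroots} {a : k} :
    ((List.finRange D.nroots).map fun s : Fin D.nroots => (glSys hS).x (s : ℕ) (if s = r then a else 0)).prod =
      (glSys hS).x r a := by
  rw [List.prod_map_eq_pow_single r]
  · simp [List.count_eq_one_of_mem (List.nodup_finRange _) (List.mem_finRange r)]
  · intro s hs _
    rw [if_neg hs, glSys_x_zero]

theorem exists_fullWord (hS : Rules D k) : ∀ (K : ℕ) (g : GL D.Idx k), InWord hS K g →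
    ∃ t : Fin K × Fin D.nroots → k, g = fullWord hS t
  | 0, g, ⟨ts, hts, e⟩ => ⟨fun _ => 0, by
      rw [List.length_eq_zero_iff.1 (Nat.le_zero.1 hts)] at e
      simpa [fullWord] using e⟩
  | K + 1, g, ⟨ts, hts, e⟩ => by
    rcases ts with _ | ⟨⟨r, a⟩, ts⟩
    · refine ⟨fun _ => 0, ?_⟩
      simp [e, fullWord, glSys_x_zero]
    · obtain ⟨t, ht⟩ := exists_fullWord hS K _ ⟨ts, Nat.le_of_succ_le_succ hts, rfl⟩
      refine ⟨fun z => Fin.cases (if z.2 = r then a else 0) (fun j => t (j, z.2)) z.1, ?_⟩
      rw [e, List.map_cons, List.prod_cons, ht, fullWord, fullWord, List.finRange_succ, List.map_cons,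
        List.prod_cons, List.map_map]
      refine congrArg₂ (· * ·) ?_ rfl
      exact (block_single hS).symm

end Word

section Lang

variable {k : Type*} [Field k] [IsAlgClosed k]

/-- The word in root elements with indeterminate parameters. -/
noncomputable def polyWord (D : ChevalleyDatum) (k : Type*) [Field k] (K : ℕ) :
    Matrix D.Idx D.Idx (MvPolynomial (Fin K × Fin D.nroots) k) :=
  ((List.finRange K).map fun j => ((List.finRange D.nroots).map fun r =>
    (xPoly D r).map (Polynomial.aeval (MvPolynomial.X (j, r)))).prod).prod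

/-- Its inverse. -/
noncomputable def polyWordInv (D : ChevalleyDatum) (k : Type*) [Field k] (K : ℕ) :
    Matrix D.Idx D.Idx (MvPolynomial (Fin K × Fin D.nroots) k) :=
  ((List.finRange K).reverse.map fun j => ((List.finRange D.nroots).reverse.map fun r =>
    (xPoly D r).map (Polynomial.aeval (-MvPolynomial.X (j, r) : MvPolynomial (Fin K × Fin D.nroots) k))).prod).prod

omit [IsAlgClosed k] in
theorem eval_x (hS : Rules D k) {σ : Type*} (t : σ → k) (r : Fin D.nroots) (P : MvPolynomial σ k) :
    ((xPoly D r).map (Polynomial.aeval P)).map (MvPolynomial.eval t) =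
      (((glSys hS).x r (MvPolynomial.eval t P) : GL D.Idx k) : Matrix D.Idx D.Idx k) := by
  show _ = (xGL D k r (MvPolynomial.eval t P) : Matrix D.Idx D.Idx k)
  rw [val_xGL hS, ChevalleyDatum.x, dif_pos r.2, ← xPoly_map, Matrix.map_map]
  ext a b
  show MvPolynomial.eval t (Polynomial.aeval P (xPoly D r a b)) = _
  rw [Matrix.map_apply, Fin.eta, Polynomial.aeval_def, Polynomial.aeval_def, Polynomial.hom_eval₂]
  congr 1
  exact RingHom.ext_int _ _

omit [IsAlgClosed k] in
theorem matrix_map_prod {R R' ι : Type*} [CommRing R] [CommRing R'] [Fintype ι] [DecidableEq ι] (f : R →+* R') :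
    ∀ L : List (Matrix ι ι R), L.prod.map f = (L.map fun A => A.map f).prod
  | [] => by simp [Matrix.map_one f f.map_zero f.map_one]
  | A :: L => by rw [List.prod_cons, Matrix.map_mul, matrix_map_prod f L, List.map_cons, List.prod_cons]

omit [IsAlgClosed k] in
theorem eval_polyWord (hS : Rules D k) {K : ℕ} (t : Fin K × Fin D.nroots → k) :
    (polyWord D k K).map (MvPolynomial.eval t) = ((fullWord hS t : GL D.Idx k) : Matrix D.Idx D.Idx k) := by
  show _ = Units.coeHom _ (fullWord hS t)
  rw [polyWord, fullWord, matrix_map_prod, map_list_prod, List.map_map, List.map_map]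
  refine congrArg List.prod (List.map_congr_left fun j _ => ?_)
  simp only [Function.comp_apply]
  rw [matrix_map_prod, map_list_prod, List.map_map, List.map_map]
  refine congrArg List.prod (List.map_congr_left fun r _ => ?_)
  simp only [Function.comp_apply, eval_x hS, MvPolynomial.eval_X]
  rfl

omit [IsAlgClosed k] in
theorem eval_polyWordInv (hS : Rules D k) {K : ℕ} (t : Fin K × Fin D.nroots → k) :
    (polyWordInv D k K).map (MvPolynomial.eval t) =
      (((fullWord hS t)⁻¹ : GL D.Idx k) : Matrix D.Idx D.Idx k) := by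
  rw [fullWord, List.prod_inv_reverse, ← List.map_reverse, ← List.map_reverse]
  show _ = Units.coeHom _ _
  rw [polyWordInv, matrix_map_prod, map_list_prod, List.map_map, List.map_map, List.map_map]
  refine congrArg List.prod (List.map_congr_left fun j _ => ?_)
  simp only [Function.comp_apply]
  rw [List.prod_inv_reverse, ← List.map_reverse, ← List.map_reverse, List.map_map, matrix_map_prod, map_list_prod,
    List.map_map, List.map_map]
  refine congrArg List.prod (List.map_congr_left fun r _ => ?_)
  simp only [Function.comp_apply, eval_x hS, map_neg, MvPolynomial.eval_X, (glSys hS).x_inv r.2]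
  rfl

theorem exists_lang_chev {len : ℕ → ℕ} (hS : Rules D k) (hR : RootTable D len) (φ : k →+* k) (q : ℕ) (hq : 2 ≤ q)
    (hφ : ∀ x, φ x = x ^ q) {n : GL D.Idx k} (hn : n ∈ D.group k) :
    ∃ a ∈ D.group k, n = a⁻¹ * Matrix.GeneralLinearGroup.map (n := D.Idx) φ a := by
  classical
  refine exists_lang (M := polyWord D k (wordBound D)) (M' := polyWordInv D k (wordBound D)) ?_ (D.group k)
    (fun g => ?_) φ q hq hφ (fun g hg => map_group_le D φ ⟨g, hg, rfl⟩) hn
  · refine Matrix.ext fun a b => MvPolynomial.funext fun t => ?_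
    have e : (polyWord D k (wordBound D) * polyWordInv D k (wordBound D)).map (MvPolynomial.eval t) =
        (1 : Matrix D.Idx D.Idx k) := by
      rw [Matrix.map_mul, eval_polyWord hS, eval_polyWordInv hS, ← Units.val_mul, mul_inv_cancel, Units.val_one]
    refine (congrFun (congrFun e a) b).trans ?_
    rw [Matrix.one_apply, Matrix.one_apply]
    split_ifs <;> simp
  · constructor
    · intro hg
      obtain ⟨t, ht⟩ := exists_fullWord hS _ g (inWord_Gbar hS hR (group_eq hS ▸ hg))
      exact ⟨t, by rw [eval_polyWord hS, ht]⟩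
    · rintro ⟨t, ht⟩
      rw [eval_polyWord hS] at ht
      rw [group_eq hS, Units.ext ht]
      exact fullWord_mem hS t

end Lang

end Cfsg.Agent.Lang
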