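import Cfsg.Agent.ChevGrp.Torus

/-!
Characters of the diagonal subgroup as integer vectors, and the Weyl group on them (owner: helper32).
-/

set_option autoImplicit false

namespace Cfsg.Agent.Lang

open Cfsg.Lie Cfsg.Agent.ChevGrp Matrix

section Char

variable {n : Type*} [Fintype n] {A : Type*} [CommGroup A]

/-- The character with exponent vector `v`. -/
def chr (v : n → ℤ) (c : n → A) : A := ∏ j, c j ^ v j

/-- The map given by an integer matrix. -/
def mact (M : Matrix n n ℤ) (c : n → A) : n → A := fun i => chr (M i) c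

omit [Fintype n] in
theorem zpow_sum_finset (x : A) (f : n → ℤ) (s : Finset n) : x ^ (∑ k ∈ s, f k) = ∏ k ∈ s, x ^ f k := by
  classical
  induction s using Finset.induction_on with
  | empty => simp
  | insert a s ha ih => rw [Finset.sum_insert ha, Finset.prod_insert ha, _root_.zpow_add, ih]

theorem chr_add (v w : n → ℤ) (c : n → A) : chr (v + w) c = chr v c * chr w c := by
  simp [chr, _root_.zpow_add, Finset.prod_mul_distrib]

theorem chr_sub (v w : n → ℤ) (c : n → A) : chr (v - w) c = chr v c * (chr w c)⁻¹ := by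
  simp [chr, _root_.zpow_sub, Finset.prod_mul_distrib]

theorem chr_smul (a : ℤ) (v : n → ℤ) (c : n → A) : chr (a • v) c = chr v c ^ a := by
  simp [chr, ← Finset.prod_zpow, ← _root_.zpow_mul, mul_comm]

theorem chr_mul (v : n → ℤ) (c d : n → A) : chr v (c * d) = chr v c * chr v d := by
  simp [chr, _root_.mul_zpow, Finset.prod_mul_distrib]

theorem chr_inv (v : n → ℤ) (c : n → A) : chr v c⁻¹ = (chr v c)⁻¹ := by
  simp [chr, Finset.prod_inv_distrib]

theorem chr_npow (v : n → ℤ) (c : n → A) (q : ℕ) : chr v (c ^ q) = chr v c ^ q := by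
  simp only [chr, Pi.pow_apply, ← Finset.prod_pow]
  refine Finset.prod_congr rfl fun j _ => ?_
  rw [← zpow_natCast, ← zpow_natCast, ← _root_.zpow_mul, ← _root_.zpow_mul, mul_comm]

theorem chr_mact (v : n → ℤ) (M : Matrix n n ℤ) (c : n → A) : chr v (mact M c) = chr (v ᵥ* M) c := by
  simp only [chr, mact, ← Finset.prod_zpow]
  rw [Finset.prod_comm]
  refine Finset.prod_congr rfl fun j _ => ?_
  show _ = c j ^ (∑ i, v i * M i j)
  rw [zpow_sum_finset]
  exact Finset.prod_congr rfl fun i _ => by rw [← _root_.zpow_mul, mul_comm]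

theorem mact_mul (M N : Matrix n n ℤ) (c : n → A) : mact M (mact N c) = mact (M * N) c :=
  funext fun i => by
    show chr (M i) (mact N c) = chr ((M * N) i) c
    rw [chr_mact]
    rfl

theorem mact_npow (M : Matrix n n ℤ) (c : n → A) (q : ℕ) : mact M (c ^ q) = mact M c ^ q :=
  funext fun i => chr_npow (M i) c q

theorem chr_single [DecidableEq n] (i : n) (c : n → A) : chr (Pi.single i 1) c = c i := by
  rw [chr, Finset.prod_eq_single i (fun j _ hj => by simp [hj]) (by simp), Pi.single_eq_same, zpow_one]

theorem mact_one [DecidableEq n] (c : n → A) : mact (1 : Matrix n n ℤ) c = c :=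
  funext fun i => by
    show chr ((1 : Matrix n n ℤ) i) c = c i
    rw [show (1 : Matrix n n ℤ) i = Pi.single i 1 from funext fun j => by
      simp [Matrix.one_apply, Pi.single_apply, eq_comm]]
    exact chr_single i c

end Char

section Kap

variable (D : ChevalleyDatum)

/-- The Cartan integers of a root against the fundamental coroots: its values on the torus parameters. -/
def kap (s : ℕ) : Fin D.rank → ℤ := fun i => D.cartan i s

/-- One reflection on such vectors. -/
def reflMat (i : Fin D.rank) : Matrix (Fin D.rank) (Fin D.rank) ℤ :=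
  Matrix.of fun j l => (if j = l then 1 else 0) - if l = i then D.cartan j (D.simple i) else 0

/-- The action of a word. -/
def wMat : List (Fin D.rank) → Matrix (Fin D.rank) (Fin D.rank) ℤ
  | [] => 1
  | i :: w => reflMat D i * wMat w

variable {D}

theorem reflMat_mulVec (i : Fin D.rank) (v : Fin D.rank → ℤ) (j : Fin D.rank) :
    (reflMat D i *ᵥ v) j = v j - v i * D.cartan j (D.simple i) := by
  simp [reflMat, Matrix.mulVec, dotProduct, sub_mul, Finset.sum_sub_distrib, mul_comm (v i)]

theorem kap_act {len : ℕ → ℕ} (hR : RootTable D len) (w : List (Fin D.rank)) {s : ℕ} (hs : s < D.nroots) :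
    kap D (act D w s) = wMat D w *ᵥ kap D s := by
  induction w with
  | nil => simp [wMat, act_nil]
  | cons i w ih =>
    rw [wMat, ← Matrix.mulVec_mulVec, ← ih]
    funext j
    rw [reflMat_mulVec, kap, act_cons, hR.cartan_reflect j.2 i.2 (hR.act_lt w hs)]
    rfl

variable {F : Type*} [Field F]

theorem mem_rootKer_iff (c : Fin D.rank → Fˣ) :
    c ∈ rootKer D F ↔ ∀ k : Fin D.rank, chr (kap D (D.simple k)) c = 1 := Iff.rfl

end Kap

end Cfsg.Agent.Lang
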