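import Cfsg.Agent.Lang.Chev
import Cfsg.Agent.Lang.Weight
import Cfsg.Agent.Chev.FieldFix

/-!
Cyclic self-centralizing twisted tori of the Chevalley groups with unimodular Cartan matrix (owner: helper32).
-/

set_option autoImplicit false
set_option linter.style.haveILetI false

namespace Cfsg.Agent.Lang

open Cfsg.Lie Cfsg.Agent.ChevGrp Matrix
open scoped MatrixGroups

variable {D : ChevalleyDatum}

/-- The companion matrix of `x^r + a_{r-1} x^{r-1} + ⋯ + a_0`, acting by `y_m ↦ y_{m+1}`. -/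
def compan (a : Fin D.rank → ℤ) : Matrix (Fin D.rank) (Fin D.rank) ℤ :=
  Matrix.of fun i => if h : (i : ℕ) + 1 < D.rank then Pi.single ⟨i + 1, h⟩ 1 else -a

/-- The data of a twisted torus: a word and the change to companion form of its action on the parameters. -/
structure TorusData (D : ChevalleyDatum) where
  w : List (Fin D.rank)
  M : Matrix (Fin D.rank) (Fin D.rank) ℤ
  P : Matrix (Fin D.rank) (Fin D.rank) ℤ
  Q : Matrix (Fin D.rank) (Fin D.rank) ℤ
  a : Fin D.rank → ℤ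
  hM : Mᵀ * wMat D w = 1
  hPQ : P * Q = 1
  hQP : Q * P = 1
  hPM : P * M = compan a * P
  pos : 0 < D.rank

namespace TorusData

variable (T : TorusData D)

/-- The exponents `q^(r-1-m)`. -/
def ee (_T : TorusData D) (q : ℕ) (m : Fin D.rank) : ℤ := (q : ℤ) ^ (D.rank - 1 - (m : ℕ))

/-- The order of the torus. -/
def ord (q : ℕ) : ℤ := 1 + (q : ℤ) * ∑ m, T.a m * T.ee q m

/-- The exponent of a character on the torus. -/
def wt (q : ℕ) (v : Fin D.rank → ℤ) : ℤ := ∑ m, (v ᵥ* T.Q) m * T.ee q m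

/-- The last index. -/
def last : Fin D.rank := ⟨D.rank - 1, by have := T.pos; omega⟩

variable {A : Type*} [CommGroup A]

/-- The parameter with coordinate `x`. -/
def cx (q : ℕ) (x : A) : Fin D.rank → A := mact T.Q fun m => x ^ T.ee q m

theorem chr_pow (q : ℕ) (x : A) (v : Fin D.rank → ℤ) :
    chr v (fun m => x ^ T.ee q m) = x ^ (∑ m, v m * T.ee q m) := by
  rw [chr, zpow_sum_finset]
  exact Finset.prod_congr rfl fun m _ => by rw [← _root_.zpow_mul, mul_comm]

theorem chr_cx (q : ℕ) (x : A) (v : Fin D.rank → ℤ) : chr v (T.cx q x) = x ^ T.wt q v := by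
  rw [cx, chr_mact, chr_pow]
  rfl

theorem cx_one (q : ℕ) : T.cx q (1 : A) = 1 := by
  funext i
  simp [cx, mact, chr]

theorem cx_mul (q : ℕ) (x y : A) : T.cx q (x * y) = T.cx q x * T.cx q y := by
  funext i
  show chr (T.Q i) (fun m => (x * y) ^ T.ee q m) =
    chr (T.Q i) (fun m => x ^ T.ee q m) * chr (T.Q i) fun m => y ^ T.ee q m
  rw [← chr_mul]
  congr 1
  funext m
  exact _root_.mul_zpow x y _

theorem cx_P_last (q : ℕ) (x : A) : mact T.P (T.cx q x) T.last = x := by
  rw [cx, mact_mul, T.hPQ, mact_one]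
  simp [ee, last]

theorem mact_compan (y : Fin D.rank → A) (i : Fin D.rank) :
    mact (compan T.a) y i = if h : (i : ℕ) + 1 < D.rank then y ⟨i + 1, h⟩ else (chr T.a y)⁻¹ := by
  show chr (compan T.a i) y = _
  by_cases h : (i : ℕ) + 1 < D.rank
  · have e : compan T.a i = Pi.single ⟨i + 1, h⟩ 1 := dif_pos h
    rw [dif_pos h, e, chr_single]
  · have e : compan T.a i = -T.a := dif_neg h
    rw [dif_neg h, e]
    simp [chr]

/-- The fixed parameters are the `cx` of the roots of unity of order dividing `ord`. -/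
theorem fixed_iff (q : ℕ) (c : Fin D.rank → A) :
    mact T.M c ^ q = c ↔ ∃ x : A, x ^ T.ord q = 1 ∧ T.cx q x = c := by
  constructor
  · intro hc
    obtain ⟨y, hydef⟩ : ∃ y, y = mact T.P c := ⟨_, rfl⟩
    have hy : mact (compan T.a) y ^ q = y := by
      rw [hydef, mact_mul, ← T.hPM, ← mact_mul, ← mact_npow, hc]
    have key : ∀ (d : ℕ) (m : Fin D.rank), D.rank - 1 - (m : ℕ) = d → y m = y T.last ^ T.ee q m := by
      intro d
      induction d with
      | zero =>
        intro m hm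
        have e : m = T.last := Fin.ext (by simp only [last]; omega)
        subst e
        simp [ee, last]
      | succ d ih =>
        intro m hm
        have h : (m : ℕ) + 1 < D.rank := by omega
        have h1 := congrFun hy m
        rw [Pi.pow_apply, mact_compan, dif_pos h] at h1
        rw [← h1, ih ⟨m + 1, h⟩ (by show D.rank - 1 - ((m : ℕ) + 1) = d; omega), ← zpow_natCast,
          ← _root_.zpow_mul]
        congr 1
        simp only [ee]
        rw [show D.rank - 1 - (m : ℕ) = (D.rank - 1 - ((m : ℕ) + 1)) + 1 by omega, pow_succ]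
    have hy2 : y = fun m => y T.last ^ T.ee q m := funext fun m => key _ m rfl
    refine ⟨y T.last, ?_, ?_⟩
    · have h := congrFun hy T.last
      have hn : ¬ (T.last : ℕ) + 1 < D.rank := by simp only [last]; omega
      rw [Pi.pow_apply, mact_compan, dif_neg hn] at h
      obtain ⟨x, hxdef⟩ : ∃ x, x = y T.last := ⟨_, rfl⟩
      rw [hy2] at h
      dsimp only at h
      rw [chr_pow, ← hxdef, show x ^ T.ee q T.last = x by simp [ee, last], inv_pow] at h
      rw [← hxdef, ord, _root_.zpow_add, zpow_one, _root_.zpow_mul', zpow_natCast]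
      rw [inv_eq_iff_eq_inv] at h
      rw [h, mul_inv_cancel]
    · rw [cx, ← hy2, hydef, mact_mul, T.hQP, mact_one]
  · rintro ⟨x, hx, rfl⟩
    have e : T.M * T.Q = T.Q * compan T.a := by
      calc T.M * T.Q = T.Q * (T.P * T.M) * T.Q := by rw [← mul_assoc, T.hQP, one_mul]
        _ = T.Q * compan T.a := by rw [T.hPM, mul_assoc, mul_assoc, T.hPQ, mul_one]
    rw [cx, mact_mul, e, ← mact_mul, ← mact_npow]
    congr 1
    funext m
    rw [Pi.pow_apply, mact_compan]
    by_cases h : (m : ℕ) + 1 < D.rank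
    · rw [dif_pos h, ← zpow_natCast, ← _root_.zpow_mul]
      congr 1
      simp only [ee]
      rw [show D.rank - 1 - (m : ℕ) = (D.rank - 1 - ((m : ℕ) + 1)) + 1 by omega, pow_succ]
    · rw [dif_neg h, chr_pow, inv_pow, ← zpow_natCast, ← _root_.zpow_mul]
      have e2 : m = T.last := Fin.ext (by have := m.2; simp only [last]; omega)
      subst e2
      rw [inv_eq_iff_mul_eq_one, ← _root_.zpow_add]
      rw [ord] at hx
      refine Eq.trans ?_ hx
      congr 1
      simp [ee, last]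
      ring

theorem chr_mulVec (q : ℕ) {c : Fin D.rank → A} (hc : mact T.M c ^ q = c) (v : Fin D.rank → ℤ) :
    chr (wMat D T.w *ᵥ v) c = chr v c ^ q := by
  conv_lhs => rw [← hc]
  rw [chr_npow, chr_mact]
  congr 2
  rw [← Matrix.mulVec_transpose, Matrix.mulVec_mulVec, T.hM, Matrix.one_mulVec]

theorem chr_mulVec_pow (q : ℕ) {c : Fin D.rank → A} (hc : mact T.M c ^ q = c) (v : Fin D.rank → ℤ) :
    ∀ j : ℕ, chr (wMat D T.w ^ j *ᵥ v) c = chr v c ^ q ^ j
  | 0 => by simp
  | j + 1 => by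
    rw [pow_succ', ← Matrix.mulVec_mulVec, chr_mulVec T q hc, chr_mulVec_pow q hc v j, ← pow_mul, ← pow_succ]

end TorusData

section Group

variable {k : Type*} [Field k] {len : ℕ → ℕ}

/-- The diagonal element of a parameter. -/
noncomputable def tauC (hS : Rules D k) (hR : RootTable D len) : (Fin D.rank → kˣ) →* GL D.Idx k :=
  (glSys hS).tau hS hR (glSys_HMul hS hR)

theorem tauC_mem (hS : Rules D k) (hR : RootTable D len) (c : Fin D.rank → kˣ) :
    tauC hS hR c ∈ (glSys hS).Hbar := by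
  rw [← (glSys hS).tau_range hS hR (glSys_HMul hS hR)]
  exact ⟨c, rfl⟩

theorem exists_tauC (hS : Rules D k) (hR : RootTable D len) {h : GL D.Idx k} (hh : h ∈ (glSys hS).Hbar) :
    ∃ c, tauC hS hR c = h := by
  rw [← (glSys hS).tau_range hS hR (glSys_HMul hS hR)] at hh
  exact hh

theorem tauC_injective (hS : Rules D k) (hR : RootTable D len)
    (hU : ∃ B : Fin D.rank → Fin D.rank → ℤ, ∀ i j : Fin D.rank,
      ∑ l : Fin D.rank, D.cartan j (D.simple l) * B l i = if j = i then 1 else 0) :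
    Function.Injective (tauC hS hR) := by
  rw [injective_iff_map_eq_one]
  intro c hc
  have h := ((glSys hS).θ_tau_eq_one_iff hS hR (glSys_HMul hS hR) c).1
    (by rw [show (glSys hS).tau hS hR (glSys_HMul hS hR) c = 1 from hc, map_one])
  rwa [Chev.FieldFix.rootKer_eq_bot hU, Subgroup.mem_bot] at h

/-- A torus element multiplies root elements by the values of the roots. -/
theorem tauC_x (hS : Rules D k) (hR : RootTable D len) {s : ℕ} (hs : s < D.nroots)
    (c : Fin D.rank → kˣ) : ∀ t : k,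
    tauC hS hR c * (glSys hS).x s t = (glSys hS).x s ((chr (kap D s) c : kˣ) * t) * tauC hS hR c := by
  induction c using Pi.mulSingle_induction with
  | one => intro t; simp [chr]
  | mul f g hf hg =>
    intro t
    rw [map_mul, mul_assoc, hg, ← mul_assoc, hf, chr_mul, Units.val_mul]
    simp [mul_assoc]
  | mulSingle i u =>
    intro t
    have e : (chr (kap D s) (Pi.mulSingle i u) : kˣ) = u ^ D.cartan i s := by
      rw [chr, Finset.prod_eq_single i (fun j _ hj => by simp [Pi.mulSingle_eq_of_ne hj]) (by simp),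
        Pi.mulSingle_eq_same]
      rfl
    rw [e, Units.val_zpow_eq_zpow_val, tauC, Sys.tau, MonoidHom.noncommPiCoprod_mulSingle]
    refine Units.ext ?_
    show (glSys hS).mat ((glSys hS).hEl (D.simple i) u * (glSys hS).x s t) =
      (glSys hS).mat ((glSys hS).x s _ * (glSys hS).hEl (D.simple i) u)
    rw [(glSys hS).mat_mul, (glSys hS).mat_mul, (glSys hS).mat_hEl hR (hR.simple_lt i i.2),
      (glSys hS).mat_x hs, (glSys hS).mat_x hs]
    exact hS.hMat_conj i i.2 s hs u u.ne_zero t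

/-- Commutation of a Weyl representative with torus elements, read on the values of the roots. -/
theorem chr_of_conj (hS : Rules D k) (hR : RootTable D len) (w : List (Fin D.rank))
    {c c' : Fin D.rank → kˣ} (e : (glSys hS).nW w * tauC hS hR c = tauC hS hR c' * (glSys hS).nW w) {s : ℕ}
    (hs : s < D.nroots) : chr (kap D (act D w s)) c' = chr (kap D s) c := by
  obtain ⟨b, hb, hn⟩ := (glSys hS).mat_nW hS hR w
  have e1 := congrArg (fun g : GL D.Idx k => (glSys hS).mat g) e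
  simp only [(glSys hS).mat_mul, tauC, (glSys hS).mat_tau hS hR] at e1
  have e2 := congrFun (congrFun e1 (Sum.inr ⟨act D w s, hR.act_lt w hs⟩)) (Sum.inr ⟨s, hs⟩)
  rw [Matrix.mul_diagonal, Matrix.diagonal_mul, hn, if_pos rfl, mul_comm] at e2
  exact Units.ext (mul_right_cancel₀ (hb ⟨s, hs⟩) e2).symm

theorem act_surj (hR : RootTable D len) (w : List (Fin D.rank)) {r : ℕ} (hr : r < D.nroots) :
    ∃ s < D.nroots, act D w s = r :=
  ⟨act D w.reverse r, hR.act_lt _ hr, hR.act_act_reverse w hr⟩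

theorem nW_conj_tauC (hS : Rules D k) (hR : RootTable D len)
    (hU : ∃ B : Fin D.rank → Fin D.rank → ℤ, ∀ i j : Fin D.rank,
      ∑ l : Fin D.rank, D.cartan j (D.simple l) * B l i = if j = i then 1 else 0) (T : TorusData D)
    (c : Fin D.rank → kˣ) :
    (glSys hS).nW T.w * tauC hS hR c = tauC hS hR (mact T.M c) * (glSys hS).nW T.w := by
  obtain ⟨d, hd⟩ := exists_tauC hS hR ((glSys hS).nW_conj_Hbar hS hR T.w (tauC_mem hS hR c))
  have e : (glSys hS).nW T.w * tauC hS hR c = tauC hS hR d * (glSys hS).nW T.w := by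
    rw [hd, inv_mul_cancel_right]
  suffices d * (mact T.M c)⁻¹ = 1 by rw [mul_inv_eq_one] at this; rw [e, this]
  have hmem : d * (mact T.M c)⁻¹ ∈ rootKer D k := by
    rw [mem_rootKer_iff]
    intro l
    obtain ⟨s, hs, hact⟩ := act_surj hR T.w (hR.simple_lt l l.2)
    rw [← hact, chr_mul, chr_inv, chr_of_conj hS hR T.w e hs, chr_mact, kap_act hR T.w hs,
      ← Matrix.mulVec_transpose, Matrix.mulVec_mulVec, T.hM, Matrix.one_mulVec, mul_inv_cancel]
  rwa [Chev.FieldFix.rootKer_eq_bot hU, Subgroup.mem_bot] at hmem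

theorem conj_P (hS : Rules D k) (hR : RootTable D len) (c : Fin D.rank → kˣ) :
    ∀ (L : List ℕ), (∀ r ∈ L, r < D.nroots) → ∀ t : ℕ → k,
      tauC hS hR c * (glSys hS).P L t * (tauC hS hR c)⁻¹ =
        (glSys hS).P L fun r => (chr (kap D r) c : kˣ) * t r
  | [], _, t => by simp [Sys.P_nil]
  | r :: L, hL, t => by
    have ih := conj_P hS hR c L (fun s hs => hL s (List.mem_cons_of_mem _ hs)) t
    rw [(glSys hS).P_cons, (glSys hS).P_cons, ← ih, ← mul_assoc,
      tauC_x hS hR (hL r (by simp)) c (t r)]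
    simp [mul_assoc]

theorem conj_US (hS : Rules D k) (hR : RootTable D len) (c : Fin D.rank → kˣ) {T : Set ℕ}
    (hT : ∀ r ∈ T, r < D.nroots) {u : GL D.Idx k} (hu : u ∈ (glSys hS).US T) :
    tauC hS hR c * u * (tauC hS hR c)⁻¹ ∈ (glSys hS).US T :=
  (Subgroup.mem_normalizer_iff.1 ((glSys hS).Hbar_le_normalizer_US hS hR hT (tauC_mem hS hR c)) u).1 hu

/-- A regular torus element centralizes no non-trivial element of `U`. -/
theorem regular_U (hS : Rules D k) (hR : RootTable D len) {c : Fin D.rank → kˣ}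
    (hreg : ∀ s < D.nroots, chr (kap D s) c ≠ 1) {u : GL D.Idx k} (hu : u ∈ (glSys hS).Ubar)
    (e : tauC hS hR c * u * (tauC hS hR c)⁻¹ = u) : u = 1 := by
  obtain ⟨L, hL⟩ := hR.posSet_closed.exists_enum
  obtain ⟨t, rfl⟩ := (glSys hS).exists_coef hR hR.posSet_closed hL hu
  have hLlt : ∀ r ∈ L, r < D.nroots := fun r hr => ((hL.2 r).1 hr).1
  rw [conj_P hS hR c L hLlt t] at e
  have ht := (glSys hS).coef_unique hR hR.posSet_closed hL (congrArg (glSys hS).θ e)
  refine (glSys hS).P_zero hLlt fun r hr => ?_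
  have h1 : ((chr (kap D r) c : kˣ) : k) * t r = t r := ht r ((hL.2 r).1 hr)
  by_contra h0
  exact hreg r (hLlt r hr) (Units.ext ((mul_eq_right₀ h0).1 h1))

/-- The centralizer of a regular torus element consists of monomial elements. -/
theorem regular_centralizer (hS : Rules D k) (hR : RootTable D len) {c : Fin D.rank → kˣ}
    (hreg : ∀ s < D.nroots, chr (kap D s) c ≠ 1) {y : GL D.Idx k} (hy : y ∈ (glSys hS).Gbar)
    (e : tauC hS hR c * y = y * tauC hS hR c) :
    ∃ (d : Fin D.rank → kˣ) (w : List (Fin D.rank)), y = tauC hS hR d * (glSys hS).nW w ∧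
      (glSys hS).nW w * tauC hS hR c = tauC hS hR c * (glSys hS).nW w := by
  obtain ⟨b, hb, w, -, v, hv, rfl⟩ := (glSys hS).mem_NF hS hR hy
  obtain ⟨u, hu, h₁, hh₁, rfl⟩ := ((glSys hS).mem_Bbar hS hR).1 hb
  obtain ⟨h, hhdef⟩ : ∃ h, h = tauC hS hR c := ⟨_, rfl⟩
  have hh : h ∈ (glSys hS).Hbar := hhdef ▸ tauC_mem hS hR c
  obtain ⟨n, hndef⟩ : ∃ n, n = (glSys hS).nW w := ⟨_, rfl⟩
  have hk : n * h⁻¹ * n⁻¹ ∈ (glSys hS).Hbar := hndef ▸ (glSys hS).nW_conj_Hbar hS hR w (inv_mem hh)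
  have hu' : h * u * h⁻¹ ∈ (glSys hS).Ubar := hhdef ▸ conj_US hS hR c (fun r hr => hr.1) hu
  have hv' : h * v * h⁻¹ ∈ (glSys hS).US (invSet D w) := hhdef ▸ conj_US hS hR c (fun r hr => hr.1.1) hv
  have hh' : h * h₁ * (n * h⁻¹ * n⁻¹) ∈ (glSys hS).Hbar := mul_mem (mul_mem hh hh₁) hk
  have e1 : (h * u * h⁻¹) * (h * h₁ * (n * h⁻¹ * n⁻¹)) * n * (h * v * h⁻¹) = u * h₁ * n * v := by
    calc _ = h * (u * h₁ * n * v) * h⁻¹ := by simp [mul_assoc]
      _ = _ := by rw [hhdef, hndef, e, mul_inv_cancel_right]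
  rw [hndef] at e1 hh'
  obtain ⟨e2, e3⟩ := ((glSys hS).bruhat_unique hS hR
    (mul_mem ((glSys hS).Ubar_le_Bbar hu') ((glSys hS).Hbar_le_Bbar hh')) hb hv' hv e1).2 rfl
  obtain ⟨e4, -⟩ := (glSys hS).Bbar_decomp_unique hS hR hu' hu hh' hh₁ e2
  have hu1 := regular_U hS hR hreg hu (hhdef ▸ e4)
  have hv1 := regular_U hS hR hreg ((glSys hS).US_mono (fun r hr => hr.1) hv) (hhdef ▸ e3)
  obtain ⟨d, hd⟩ := exists_tauC hS hR hh₁
  refine ⟨d, w, by rw [hu1, hv1, one_mul, mul_one, hd], ?_⟩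
  rw [hu1, hv1, one_mul, mul_one, ← mul_assoc, ← hd] at e
  rw [← map_mul, mul_comm, map_mul, mul_assoc, mul_assoc] at e
  exact (mul_left_cancel e).symm

end Group

section Main

variable {F : Type*} [Field F]

/-- A cyclic self-centralizing subgroup from the data of a regular twisted torus. -/
theorem exists_selfcentralizing_cyclic [Fintype F]
    (hD : D ∈ [chevG2, chevB2, chevD4, chevF4, chevE6, chevE7, chevE8])
    (hU : ∃ B : Fin D.rank → Fin D.rank → ℤ, ∀ i j : Fin D.rank,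
      ∑ l : Fin D.rank, D.cartan j (D.simple l) * B l i = if j = i then 1 else 0)
    (T : TorusData D) (reps : List ℕ) (m : ℕ)
    (hinj : ∀ s < D.nroots, ∀ t < D.nroots, kap D s = kap D t → s = t)
    (horb : ∀ s < D.nroots, ∃ r ∈ reps, ∃ j : ℕ, kap D s = wMat D T.w ^ j *ᵥ kap D r)
    (hcent : ∀ L : Matrix (Fin D.rank) (Fin D.rank) ℤ,
      (∀ s < D.nroots, ∃ t < D.nroots, L *ᵥ kap D s = kap D t) → L * wMat D T.w = wMat D T.w * L →
        ∃ j < m, L = wMat D T.w ^ j)
    (q : ℕ) (hq : Fintype.card F = q) (N : ℕ) (hN : (N : ℤ) = T.ord q)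
    (hrep : ∀ r ∈ reps, ¬ (N : ℤ) ∣ T.wt q (kap D r))
    (hord : ∀ j < m, (N : ℤ) ∣ (q : ℤ) ^ j - 1 → j = 0) :
    ∃ H : Subgroup ↥(D.group F), IsCyclic ↥H ∧ Nat.card ↥H = N ∧
      Subgroup.centralizer (H : Set ↥(D.group F)) = H := by
  classical
  have hF : Rules D F := Cfsg.Agent.Chev.rules_of_mem F hD
  obtain ⟨len, hR⟩ := hF.root
  have hS : Rules D (AlgebraicClosure F) := Cfsg.Agent.Chev.rules_of_mem _ hD
  obtain ⟨f, hfdef⟩ : ∃ f : F →+* AlgebraicClosure F, f = algebraMap F (AlgebraicClosure F) := ⟨_, rfl⟩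
  obtain ⟨φ, hφ⟩ : ∃ φ : AlgebraicClosure F →+* AlgebraicClosure F, ∀ x, φ x = x ^ q :=
    ⟨(FiniteField.frobeniusAlgHom F (AlgebraicClosure F)).toRingHom, fun x => by rw [← hq]; rfl⟩
  have hq2 : 2 ≤ q := hq ▸ Fintype.one_lt_card
  have hfix : ∀ a, φ a = a → ∃ b, f b = a := by
    intro a ha
    rw [hφ] at ha
    have hne : (Polynomial.X ^ q - Polynomial.X : Polynomial (AlgebraicClosure F)) ≠ 0 :=
      FiniteField.X_pow_card_sub_X_ne_zero _ (by omega)
    have hsub : Finset.univ.image f ⊆ (Polynomial.X ^ q - Polynomial.X : Polynomial (AlgebraicClosure F)).roots.toFinset := by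
      intro b hb
      obtain ⟨c, -, rfl⟩ := Finset.mem_image.1 hb
      rw [Multiset.mem_toFinset, Polynomial.mem_roots hne]
      simp [← map_pow, ← hq, FiniteField.pow_card]
    have hcard : (Polynomial.X ^ q - Polynomial.X : Polynomial (AlgebraicClosure F)).roots.toFinset.card ≤
        (Finset.univ.image f).card := by
      rw [Finset.card_image_of_injective _ f.injective, Finset.card_univ, hq]
      refine (Multiset.toFinset_card_le _).trans ((Polynomial.card_roots' _).trans ?_)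
      rw [FiniteField.X_pow_card_sub_X_natDegree_eq _ (by omega)]
    have hmem : a ∈ Finset.univ.image f := by
      rw [Finset.eq_of_subset_of_card_le hsub hcard, Multiset.mem_toFinset, Polynomial.mem_roots hne]
      simp [ha]
    obtain ⟨b, -, hb⟩ := Finset.mem_image.1 hmem
    exact ⟨b, hb⟩
  obtain ⟨n, hndef⟩ : ∃ n, n = (glSys hS).nW T.w := ⟨_, rfl⟩
  have hnG : n ∈ D.group (AlgebraicClosure F) := by
    rw [group_eq hS, (glSys hS).Gbar_eq hR hS, hndef]
    exact Subgroup.mem_sup_right ((glSys hS).nW_mem_Nbar T.w)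
  obtain ⟨a, ha, han⟩ := exists_lang_chev hS hR φ q hq2 hφ hnG
  obtain ⟨μ, hμdef⟩ : ∃ μ : GL D.Idx (AlgebraicClosure F) →* GL D.Idx (AlgebraicClosure F),
      μ = Matrix.GeneralLinearGroup.map (n := D.Idx) φ := ⟨_, rfl⟩
  obtain ⟨ι, hιdef⟩ : ∃ ι : ↥(D.group F) →* GL D.Idx (AlgebraicClosure F),
      ι = (Matrix.GeneralLinearGroup.map (n := D.Idx) f).comp (D.group F).subtype := ⟨_, rfl⟩
  have hι : Function.Injective ι := hιdef ▸ (glMap_injective D f).comp Subtype.val_injective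
  have hιG : ∀ g, ι g ∈ D.group (AlgebraicClosure F) := fun g =>
    hιdef ▸ map_group_le D f ⟨g, g.2, rfl⟩
  have hιfix : ∀ g, μ (ι g) = ι g := fun g => by
    subst hμdef hιdef
    refine Units.ext (Matrix.ext fun i j => ?_)
    show φ (f _) = f _
    rw [hφ, ← map_pow, ← hq, FiniteField.pow_card]
  have hsurj : ∀ z ∈ D.group (AlgebraicClosure F), μ z = z → ∃ g, ι g = z := by
    intro z hz hzf
    obtain ⟨g, hg, e⟩ := Chev.FieldFix.fixed_mem_map hS hF hR hU φ f hfix hz (hμdef ▸ hzf)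
    exact ⟨⟨g, hg⟩, hιdef ▸ e⟩
  have hμn : ∀ w, μ ((glSys hS).nW w) = (glSys hS).nW w := fun w =>
    hμdef ▸ Chev.FieldFix.map_nW hS hS φ w
  have hμtau : ∀ c, μ (tauC hS hR c) = tauC hS hR (c ^ q) := fun c => by
    subst hμdef
    rw [tauC, Chev.FieldFix.map_tau hS hS hR φ c]
    congr 1
    funext i
    exact Units.ext (by simp [hφ])
  have hμa : μ a = a * n := by
    rw [han, mul_inv_cancel_left, hμdef]
  have htauG : ∀ c, tauC hS hR c ∈ D.group (AlgebraicClosure F) := fun c => by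
    rw [group_eq hS, (glSys hS).Gbar_eq hR hS]
    exact Subgroup.mem_sup_left ((glSys hS).Hbar_le_Bbar (tauC_mem hS hR c))
  have hconj : ∀ c, n * tauC hS hR c = tauC hS hR (mact T.M c) * n := fun c =>
    hndef ▸ nW_conj_tauC hS hR hU T c
  have hmu_tau : ∀ c, μ (a * tauC hS hR c * a⁻¹) = a * tauC hS hR (mact T.M c ^ q) * a⁻¹ := fun c => by
    rw [map_mul, map_mul, map_inv, hμa, hμtau, mul_assoc a n, hconj, mact_npow]
    simp [mul_assoc]
  -- the roots of unity
  have hN0 : (N : AlgebraicClosure F) ≠ 0 := by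
    have h1 : ((N : ℤ) : AlgebraicClosure F) = 1 := by
      have hq0 : (q : AlgebraicClosure F) = 0 := by
        rw [← hq, ← map_natCast f, FiniteField.cast_card_eq_zero, map_zero]
      rw [hN, TorusData.ord]
      simp [hq0]
    rw [Int.cast_natCast] at h1
    rw [h1]
    exact one_ne_zero
  haveI : NeZero (N : AlgebraicClosure F) := ⟨hN0⟩
  haveI : NeZero N := ⟨fun h => hN0 (by rw [h, Nat.cast_zero])⟩
  have hx : ∀ x : ↥(rootsOfUnity N (AlgebraicClosure F)),
      mact T.M (T.cx q (x : (AlgebraicClosure F)ˣ)) ^ q = T.cx q (x : (AlgebraicClosure F)ˣ) := fun x =>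
    (T.fixed_iff q _).2 ⟨x, by rw [← hN, zpow_natCast]; exact (mem_rootsOfUnity N _).1 x.2, rfl⟩
  have hex : ∀ x : ↥(rootsOfUnity N (AlgebraicClosure F)), ∃ g : ↥(D.group F),
      ι g = a * tauC hS hR (T.cx q (x : (AlgebraicClosure F)ˣ)) * a⁻¹ := fun x =>
    hsurj _ (mul_mem (mul_mem ha (htauG _)) (inv_mem ha)) (by rw [hmu_tau, hx])
  choose e he using hex
  let η : ↥(rootsOfUnity N (AlgebraicClosure F)) →* ↥(D.group F) :=
    { toFun := e
      map_one' := hι (by rw [he, OneMemClass.coe_one, T.cx_one, map_one, map_one]; simp)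
      map_mul' := fun x y => hι (by
        rw [map_mul, he, he, he, Subgroup.coe_mul, T.cx_mul, map_mul]
        simp [mul_assoc]) }
  have hη : Function.Injective η := fun x y h => by
    have h1 := congrArg ι h
    rw [show ι (η x) = _ from he x, show ι (η y) = _ from he y] at h1
    have h2 := tauC_injective hS hR hU (mul_left_cancel (mul_right_cancel h1))
    refine Subtype.ext ?_
    rw [← T.cx_P_last q (x : (AlgebraicClosure F)ˣ), h2, T.cx_P_last]
  haveI : IsCyclic ↥(rootsOfUnity N (AlgebraicClosure F)) := rootsOfUnity.isCyclic _ _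
  refine ⟨η.range, isCyclic_of_surjective η.rangeRestrict η.rangeRestrict_surjective, ?_, ?_⟩
  · rw [← Nat.card_congr (MonoidHom.ofInjective hη).toEquiv]
    exact HasEnoughRootsOfUnity.natCard_rootsOfUnity (AlgebraicClosure F) N
  refine le_antisymm (fun g hg => ?_) ?_
  swap
  · rintro _ ⟨x, rfl⟩ _ ⟨y, rfl⟩
    rw [← map_mul, ← map_mul, mul_comm]
  obtain ⟨ζ₀, hζ₀⟩ := HasEnoughRootsOfUnity.exists_primitiveRoot (AlgebraicClosure F) N
  have hNpos : 0 < N := Nat.pos_of_ne_zero (NeZero.ne N)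
  obtain ⟨ζ, hζ⟩ : ∃ ζ : (AlgebraicClosure F)ˣ, IsPrimitiveRoot ζ N :=
    ⟨(hζ₀.isUnit (NeZero.ne N)).unit, hζ₀.isUnit_unit (NeZero.ne N)⟩
  obtain ⟨c, hcdef⟩ : ∃ c, c = T.cx q ζ := ⟨_, rfl⟩
  obtain ⟨xζ, hxζ⟩ : ∃ x : ↥(rootsOfUnity N (AlgebraicClosure F)), (x : (AlgebraicClosure F)ˣ) = ζ :=
    ⟨⟨ζ, (mem_rootsOfUnity N _).2 hζ.pow_eq_one⟩, rfl⟩
  have hc : mact T.M c ^ q = c := by rw [hcdef, ← hxζ]; exact hx xζ
  have hchr : ∀ v, chr v c = ζ ^ T.wt q v := fun v => hcdef ▸ T.chr_cx q ζ v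
  have hcop : Nat.Coprime N q := by
    rw [Nat.coprime_iff_gcd_eq_one]
    refine Nat.eq_one_of_dvd_one ?_
    have h1 : ((Nat.gcd N q : ℕ) : ℤ) ∣ T.ord q - (q : ℤ) * ∑ l, T.a l * T.ee q l :=
      dvd_sub (hN ▸ Int.natCast_dvd_natCast.2 (Nat.gcd_dvd_left N q))
        (Dvd.dvd.mul_right (Int.natCast_dvd_natCast.2 (Nat.gcd_dvd_right N q)) _)
    rw [TorusData.ord, add_sub_cancel_right] at h1
    exact_mod_cast h1
  have hregc : ∀ s < D.nroots, chr (kap D s) c ≠ 1 := by
    intro s hs h1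
    obtain ⟨r, hr, j, hj⟩ := horb s hs
    rw [hj, T.chr_mulVec_pow q hc, hchr] at h1
    refine hrep r hr ?_
    rw [← zpow_natCast, ← _root_.zpow_mul, hζ.zpow_eq_one_iff_dvd] at h1
    refine IsCoprime.dvd_of_dvd_mul_right ?_ h1
    exact Nat.isCoprime_iff_coprime.2 (hcop.pow_right j)
  obtain ⟨y, hydef⟩ : ∃ y, y = a⁻¹ * ι g * a := ⟨_, rfl⟩
  have hyG : y ∈ (glSys hS).Gbar := by
    rw [← group_eq hS, hydef]
    exact mul_mem (mul_mem (inv_mem ha) (hιG g)) ha
  have hcy : tauC hS hR c * y = y * tauC hS hR c := by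
    have h1 := congrArg ι (Subgroup.mem_centralizer_iff.1 hg (η xζ) ⟨xζ, rfl⟩)
    rw [map_mul, map_mul, show ι (η xζ) = _ from he xζ, hxζ, ← hcdef] at h1
    rw [hydef]
    calc tauC hS hR c * (a⁻¹ * ι g * a) = a⁻¹ * (a * tauC hS hR c * a⁻¹ * ι g) * a := by simp [mul_assoc]
      _ = _ := by rw [h1]; simp [mul_assoc]
  obtain ⟨d, w', hy, hw'⟩ := regular_centralizer hS hR hregc hyG hcy
  have htw : n * μ y = y * n := by
    rw [hydef, map_mul, map_mul, map_inv, hμa, hιfix]
    simp [mul_assoc]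
  have hact : ∀ s < D.nroots, act D (T.w ++ w') s = act D (w' ++ T.w) s := by
    refine (glSys hS).act_eq_of_eq hS hR (tauC_mem hS hR (mact T.M (d ^ q))) (tauC_mem hS hR d) ?_
    rw [(glSys hS).nW_append, (glSys hS).nW_append, ← mul_assoc, ← mul_assoc, ← hndef, ← hconj, ← hy, ← hμtau,
      mul_assoc, ← hμn w', ← map_mul, ← hy]
    exact htw
  obtain ⟨B, hB⟩ := hU
  have hL : wMat D w' * wMat D T.w = wMat D T.w * wMat D w' := by
    have h1 : (wMat D w' * wMat D T.w - wMat D T.w * wMat D w') *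
        (Matrix.of fun i l : Fin D.rank => D.cartan i (D.simple l)) = 0 := by
      refine Matrix.ext fun i l => ?_
      have h2 : (wMat D w' * wMat D T.w - wMat D T.w * wMat D w') *ᵥ kap D (D.simple l) = 0 := by
        have hs := hR.simple_lt l l.2
        rw [Matrix.sub_mulVec, ← Matrix.mulVec_mulVec, ← Matrix.mulVec_mulVec, ← kap_act hR _ hs,
          ← kap_act hR _ (hR.act_lt _ hs), ← kap_act hR _ hs, ← kap_act hR _ (hR.act_lt _ hs),
          ← act_append, ← act_append, hact _ hs, sub_self]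
      exact congrFun h2 i
    have h3 : (Matrix.of fun i l : Fin D.rank => D.cartan i (D.simple l)) * Matrix.of B = 1 :=
      Matrix.ext fun i j => by rw [Matrix.mul_apply, Matrix.one_apply]; exact hB j i
    have h4 := congrArg (· * Matrix.of B) h1
    simp only [mul_assoc, h3, mul_one, zero_mul] at h4
    exact sub_eq_zero.1 h4
  obtain ⟨j, hj, hLj⟩ := hcent (wMat D w')
    (fun s hs => ⟨act D w' s, hR.act_lt w' hs, (kap_act hR w' hs).symm⟩) hL
  have hj0 : j = 0 := by
    refine hord j hj ?_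
    have hroot : c ^ q ^ j * c⁻¹ ∈ rootKer D (AlgebraicClosure F) := by
      rw [mem_rootKer_iff]
      intro l
      have hs := hR.simple_lt l l.2
      have h1 := chr_of_conj hS hR w' hw' hs
      rw [kap_act hR w' hs, hLj, T.chr_mulVec_pow q hc] at h1
      rw [chr_mul, chr_inv, chr_npow, h1, mul_inv_cancel]
    rw [Chev.FieldFix.rootKer_eq_bot ⟨B, hB⟩, Subgroup.mem_bot, mul_inv_eq_one] at hroot
    have h2 : mact T.P (c ^ q ^ j) T.last = mact T.P c T.last := by rw [hroot]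
    rw [mact_npow, Pi.pow_apply, hcdef, T.cx_P_last, ← mul_inv_eq_one] at h2
    rw [← hζ.zpow_eq_one_iff_dvd, _root_.zpow_sub, zpow_one, ← Nat.cast_pow, zpow_natCast]
    exact h2
  subst hj0
  have hw1 : (glSys hS).nW w' ∈ (glSys hS).Hbar := by
    refine (glSys hS).nW_mem_Hbar_of_act hS hR fun r hr => ?_
    have e : act D w' r = r := hinj _ (hR.act_lt _ hr.1) _ hr.1 (by
      rw [kap_act hR w' hr.1, hLj, pow_zero, Matrix.one_mulVec])
    rw [e]
    exact hr
  obtain ⟨d', hd'⟩ := exists_tauC hS hR hw1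
  obtain ⟨cy, hcy'⟩ : ∃ cy, y = tauC hS hR cy := ⟨d * d', by rw [hy, map_mul, hd']⟩
  have hfixc : mact T.M cy ^ q = cy := by
    have h1 := hιfix g
    have h2 : ι g = a * tauC hS hR cy * a⁻¹ := by rw [← hcy', hydef]; simp [mul_assoc]
    rw [h2, hmu_tau] at h1
    exact tauC_injective hS hR ⟨B, hB⟩ (mul_left_cancel (mul_right_cancel h1))
  obtain ⟨x, hxN, hxc⟩ := (T.fixed_iff q cy).1 hfixc
  refine ⟨⟨x, (mem_rootsOfUnity N x).2 (by rw [← hN, zpow_natCast] at hxN; exact hxN)⟩, hι ?_⟩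
  show ι (e _) = ι g
  rw [he, hxc, ← hcy', hydef]
  simp [mul_assoc]

end Main

end Cfsg.Agent.Lang
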