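import Cfsg.Agent.Lang.Algebra

/-!
Lang's theorem for a group of matrices which is the image of one polynomial map (owner: helper32).
-/

set_option autoImplicit false
set_option linter.style.haveILetI false

namespace Cfsg.Agent.Lang

open MvPolynomial

section Dominant

variable {k σ : Type*} [Field k] [IsAlgClosed k] [Finite σ]

/-- The points of a subalgebra of a polynomial ring off some `h ≠ 0` are given by evaluations. -/
theorem exists_dominant (R : Subalgebra k (MvPolynomial σ k)) :
    ∃ h : R, h ≠ 0 ∧ ∀ χ : R →ₐ[k] k, χ h ≠ 0 → ∃ t : σ → k, ∀ r : R, χ r = eval t (r : MvPolynomial σ k) := by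
  classical
  haveI := Fintype.ofFinite σ
  let A : Finset σ → Subalgebra k (MvPolynomial σ k) := fun s =>
    Algebra.adjoin k ((R : Set (MvPolynomial σ k)) ∪ X '' (s : Set σ))
  have hRA : ∀ s, R ≤ A s := fun s r hr => Algebra.subset_adjoin (Or.inl hr)
  suffices key : ∀ s : Finset σ, ∀ g : A s, g ≠ 0 → ∃ h : R, h ≠ 0 ∧ ∀ χ : R →ₐ[k] k, χ h ≠ 0 →
      ∃ χ' : A s →ₐ[k] k, χ' g ≠ 0 ∧ ∀ r : R, χ' ⟨r, hRA s r.2⟩ = χ r by
    obtain ⟨h, hh, hext⟩ := key Finset.univ 1 one_ne_zero
    refine ⟨h, hh, fun χ hχ => ?_⟩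
    obtain ⟨χ', -, hr⟩ := hext χ hχ
    have hX : ∀ i : σ, (X i : MvPolynomial σ k) ∈ A Finset.univ := fun i =>
      Algebra.subset_adjoin (Or.inr ⟨i, Finset.mem_univ i, rfl⟩)
    refine ⟨fun i => χ' ⟨X i, hX i⟩, fun r => ?_⟩
    rw [← hr r]
    have htop : A Finset.univ = ⊤ := by
      refine eq_top_iff.2 ?_
      rw [← MvPolynomial.adjoin_range_X]
      exact Algebra.adjoin_mono fun x ⟨i, hi⟩ => Or.inr ⟨i, Finset.mem_univ i, hi⟩
    let χT : MvPolynomial σ k →ₐ[k] k :=
      χ'.comp (((Subalgebra.equivOfEq _ _ htop).trans Subalgebra.topEquiv).symm.toAlgHom)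
    have hu : χT = aeval fun i => χ' ⟨X i, hX i⟩ := MvPolynomial.algHom_ext fun i => by
      rw [aeval_X]
      rfl
    have := congrArg (fun f : MvPolynomial σ k →ₐ[k] k => f (r : MvPolynomial σ k)) hu
    rw [show aeval (fun i => χ' ⟨X i, hX i⟩) (r : MvPolynomial σ k) = eval _ (r : MvPolynomial σ k) from rfl] at this
    rw [← this]
    rfl
  intro s
  induction s using Finset.induction_on with
  | empty =>
    intro g hg
    have he : A ∅ = R := by
      simp [A, Algebra.adjoin_eq]
    refine ⟨⟨g, he ▸ g.2⟩, fun h => hg (Subtype.ext (congrArg (fun x : R => (x : MvPolynomial σ k)) h)), fun χ hχ => ?_⟩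
    exact ⟨χ.comp (Subalgebra.equivOfEq _ _ he).toAlgHom, hχ, fun r => rfl⟩
  | insert i s _ ih =>
    intro g hg
    have hle : A (insert i s) ≤ (Algebra.adjoin (A s) {X i}).restrictScalars k := by
      refine Algebra.adjoin_le ?_
      rintro x (hx | ⟨j, hj, rfl⟩)
      · exact le_adjoin_singleton (A s) (X i) (hRA s hx)
      · rcases Finset.mem_insert.1 hj with rfl | hj
        · exact self_mem_adjoin_singleton (A s) (X j)
        · exact le_adjoin_singleton (A s) (X i) (Algebra.subset_adjoin (Or.inr ⟨j, hj, rfl⟩))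
    obtain ⟨h₁, hh₁, hext₁⟩ := exists_extend_le (A s) (A (insert i s)) (X i) hle g hg
    obtain ⟨h, hh, hext⟩ := ih h₁ hh₁
    refine ⟨h, hh, fun χ hχ => ?_⟩
    obtain ⟨χ₁, hχ₁, hr₁⟩ := hext χ hχ
    obtain ⟨χ₂, hg₂, ha₂⟩ := hext₁ χ₁ hχ₁
    refine ⟨χ₂, hg₂, fun r => ?_⟩
    rw [← hr₁ r]
    exact ha₂ ⟨r, hRA s r.2⟩ _

end Dominant

section Twist

variable {k σ : Type*} [Field k] [IsAlgClosed k] [Finite σ] {ι : Type*} [Fintype ι] [DecidableEq ι]

/-- An integral endomorphism reaches every point. -/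
theorem exists_lift_point {R : Type*} [CommRing R] [IsDomain R] [Algebra k R] [Algebra.FiniteType k R]
    (ψ : R →ₐ[k] R) (hψ : Function.Injective ψ) (hint : ψ.toRingHom.IsIntegral) (χ : R →ₐ[k] k) :
    ∃ χ' : R →ₐ[k] k, ∀ r, χ' (ψ r) = χ r := by
  classical
  let A := ψ.range
  haveI : Algebra.IsIntegral A R := ⟨fun x => by
    obtain ⟨p, hp, he⟩ := hint x
    refine ⟨p.map ψ.rangeRestrict.toRingHom, hp.map _, ?_⟩
    rw [Polynomial.eval₂_map]
    exact he⟩
  let e := AlgEquiv.ofInjective ψ hψ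
  let χA : A →ₐ[k] k := χ.comp e.symm.toAlgHom
  have hsurj : Function.Surjective χA := fun c => ⟨algebraMap k A c, by simp⟩
  haveI : (RingHom.ker χA.toRingHom).IsMaximal := RingHom.ker_isMaximal_of_surjective _ hsurj
  obtain ⟨Q, hQ, hQA⟩ := Ideal.exists_ideal_over_maximal_of_isIntegral (R := A) (S := R)
    (RingHom.ker χA.toRingHom) (fun a ha => by
      rw [RingHom.mem_ker] at ha ⊢
      rw [show a = 0 from Subtype.ext ha, map_zero])
  haveI := hQ
  letI := Ideal.Quotient.field Q
  haveI : Algebra.FiniteType k (R ⧸ Q) :=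
    Algebra.FiniteType.of_surjective (Ideal.Quotient.mkₐ k Q) (Ideal.Quotient.mkₐ_surjective k Q)
  haveI : Module.Finite k (R ⧸ Q) := finite_of_finite_type_of_isJacobsonRing k (R ⧸ Q)
  have hbij : Function.Bijective (algebraMap k (R ⧸ Q)) := IsAlgClosed.algebraMap_bijective_of_isIntegral
  let ek : k ≃ₐ[k] R ⧸ Q := AlgEquiv.ofBijective (Algebra.ofId k (R ⧸ Q)) hbij
  refine ⟨ek.symm.toAlgHom.comp (Ideal.Quotient.mkₐ k Q), fun r => ?_⟩
  have hmem : e r - algebraMap k A (χ r) ∈ RingHom.ker χA.toRingHom := by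
    rw [RingHom.mem_ker]
    show χA (e r - algebraMap k A (χ r)) = 0
    simp [χA]
  rw [← hQA, Ideal.mem_comap] at hmem
  have h2 : Ideal.Quotient.mkₐ k Q (ψ r) = algebraMap k (R ⧸ Q) (χ r) := by
    have h3 := (Ideal.Quotient.eq (I := Q) (x := ψ r) (y := algebraMap k R (χ r))).2 hmem
    exact h3
  show ek.symm (Ideal.Quotient.mkₐ k Q (ψ r)) = χ r
  rw [h2, AlgEquiv.commutes]
  rfl

omit [IsAlgClosed k] in
/-- An algebra map killing the kernel of `Ψ` factors through the range of `Ψ`. -/
theorem exists_factor {P T R' : Type*} [CommRing P] [CommRing T] [CommRing R'] [Algebra k P] [Algebra k T]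
    [Algebra k R'] (Ψ : P →ₐ[k] T) (f : P →ₐ[k] R') (h : ∀ p, Ψ p = 0 → f p = 0) :
    ∃ ψ : Ψ.range →ₐ[k] R', ∀ p, ψ (Ψ.rangeRestrict p) = f p := by
  choose rep hrep using Ψ.rangeRestrict_surjective
  have hwd : ∀ p p', Ψ.rangeRestrict p = Ψ.rangeRestrict p' → f p = f p' := fun p p' e => by
    have h1 : Ψ p = Ψ p' := congrArg Subtype.val e
    rw [← sub_eq_zero, ← map_sub]
    exact h _ (by rw [map_sub, h1, sub_self])
  refine ⟨{ toFun := fun r => f (rep r)
            map_one' := by rw [hwd (rep 1) 1 (by rw [hrep, map_one]), map_one]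
            map_mul' := fun a b => by
              rw [hwd (rep (a * b)) (rep a * rep b) (by rw [hrep, map_mul, hrep, hrep]), map_mul]
            map_zero' := by rw [hwd (rep 0) 0 (by rw [hrep, map_zero]), map_zero]
            map_add' := fun a b => by
              rw [hwd (rep (a + b)) (rep a + rep b) (by rw [hrep, map_add, hrep, hrep]), map_add]
            commutes' := fun c => by
              show f (rep (algebraMap k Ψ.range c)) = _
              rw [hwd (rep (algebraMap k Ψ.range c)) (algebraMap k P c)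
                (by rw [hrep]; exact (Ψ.rangeRestrict.commutes c).symm), f.commutes] },
    fun p => hwd _ _ (hrep _)⟩

omit [IsAlgClosed k] in
/-- If the `q`-th powers of finitely many generators are linear in them over `A`, the algebra is finite over `A`. -/
theorem finite_of_pow_mem {R : Type*} [CommRing R] [Algebra k R] {κ : Type*} [Fintype κ] (x : κ → R)
    (hgen : Algebra.adjoin k (Set.range x) = ⊤) (A : Subalgebra k R) (q : ℕ) (hq : 2 ≤ q)
    (hx : ∀ z, x z ^ q ∈ Submodule.span A (Set.range x)) : Module.Finite A R := by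
  classical
  let mon : (κ → ℕ) → R := fun e => ∏ z, x z ^ e z
  let S := Submodule.span A (Set.range fun e : κ → Fin q => mon fun z => e z)
  have hsplit : ∀ (f : κ → ℕ) (w : κ) (c : ℕ), mon (Function.update f w (f w + c)) = mon f * x w ^ c := by
    intro f w c
    simp only [mon]
    rw [← Finset.mul_prod_erase _ _ (Finset.mem_univ w), ← Finset.mul_prod_erase _ _ (Finset.mem_univ w),
      Function.update_self, pow_add,
      Finset.prod_congr rfl fun v hv => by rw [Function.update_of_ne (Finset.ne_of_mem_erase hv)]]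
    ring
  have hsumup : ∀ (f : κ → ℕ) (w : κ) (c : ℕ), ∑ v, Function.update f w (f w + c) v = ∑ v, f v + c := by
    intro f w c
    have hrest : ∑ v ∈ Finset.univ.erase w, Function.update f w (f w + c) v = ∑ v ∈ Finset.univ.erase w, f v :=
      Finset.sum_congr rfl fun v hv => Function.update_of_ne (Finset.ne_of_mem_erase hv) _ f
    rw [← Finset.add_sum_erase _ _ (Finset.mem_univ w), ← Finset.add_sum_erase _ f (Finset.mem_univ w),
      Function.update_self, hrest]
    omega
  have hmon : ∀ (d : ℕ) (e : κ → ℕ), ∑ z, e z = d → mon e ∈ S := by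
    intro d
    induction d using Nat.strong_induction_on with
    | _ d ih =>
      intro e he
      by_cases hall : ∀ z, e z < q
      · exact Submodule.subset_span ⟨fun z => ⟨e z, hall z⟩, rfl⟩
      push Not at hall
      obtain ⟨z, hz⟩ := hall
      obtain ⟨e', hee⟩ : ∃ e' : κ → ℕ, Function.update e' z (e' z + q) = e := by
        refine ⟨Function.update e z (e z - q), ?_⟩
        rw [Function.update_self, Function.update_idem, Nat.sub_add_cancel hz, Function.update_eq_self]
      have hsum : ∑ w, e' w + q = d := by rw [← hsumup e' z q, hee, he]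
      rw [← hee, hsplit]
      refine Submodule.span_induction (p := fun y _ => mon e' * y ∈ S) ?_ ?_ ?_ ?_ (hx z)
      · rintro _ ⟨w, rfl⟩
        have := ih _ (by rw [hsumup e' w 1]; omega) (Function.update e' w (e' w + 1)) rfl
        rwa [hsplit, pow_one] at this
      · rw [mul_zero]; exact S.zero_mem
      · intro a b _ _ ha hb
        rw [mul_add]
        exact S.add_mem ha hb
      · intro a b _ hb
        rw [mul_smul_comm]
        exact S.smul_mem a hb
  have htop : S = ⊤ := by
    refine eq_top_iff.2 fun r hr0 => ?_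
    clear hr0
    have hr : r ∈ Submodule.span k (Submonoid.closure (Set.range x) : Set R) := by
      rw [← Algebra.adjoin_eq_span k, hgen]
      exact (Algebra.mem_top : r ∈ (⊤ : Subalgebra k R))
    induction hr using Submodule.span_induction with
    | mem y hy =>
      obtain ⟨e, he⟩ : ∃ e : κ → ℕ, y = mon e := by
        induction hy using Submonoid.closure_induction with
        | mem w hw =>
          obtain ⟨z, rfl⟩ := hw
          refine ⟨Function.update (0 : κ → ℕ) z ((0 : κ → ℕ) z + 1), ?_⟩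
          rw [hsplit]
          simp [mon]
        | one => exact ⟨0, by simp [mon]⟩
        | mul a b _ _ ha hb =>
          obtain ⟨ea, rfl⟩ := ha
          obtain ⟨eb, rfl⟩ := hb
          exact ⟨ea + eb, by simp [mon, pow_add, Finset.prod_mul_distrib]⟩
      exact he ▸ hmon _ e rfl
    | zero => exact S.zero_mem
    | add a b _ _ ha hb => exact S.add_mem ha hb
    | smul c a _ ha =>
      rw [← smul_one_smul A c a]
      exact S.smul_mem _ ha
  exact ⟨⟨Finset.univ.image fun e : κ → Fin q => mon fun z => e z, by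
    rw [Finset.coe_image, Finset.coe_univ, Set.image_univ]; exact htop⟩⟩

omit [IsAlgClosed k] in
/-- An endomorphism over whose range the algebra is finite is integral. -/
theorem isIntegral_of_finite_range {R : Type*} [CommRing R] [Algebra k R] (ψ : R →ₐ[k] R)
    (h : Module.Finite ψ.range R) : ψ.toRingHom.IsIntegral := by
  intro x
  obtain ⟨p, hp, he⟩ := Algebra.IsIntegral.isIntegral (R := ψ.range) x
  obtain ⟨p', hp', -, hp'm⟩ := Polynomial.lifts_and_natDegree_eq_and_monic
    (f := ψ.rangeRestrict.toRingHom) (Polynomial.map_surjective _ ψ.rangeRestrict_surjective p) hp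
  refine ⟨p', hp'm, ?_⟩
  rw [← hp', Polynomial.eval₂_map] at he
  exact he

omit [IsAlgClosed k] [DecidableEq ι] in
theorem mul_mul_mem_span {R : Type*} [CommRing R] [Algebra k R] (A : Subalgebra k R) {s : Set R}
    (U W V : Matrix ι ι R) (hU : ∀ i j, U i j ∈ A) (hW : ∀ i j, W i j ∈ s) (hV : ∀ i j, V i j ∈ A) (i j : ι) :
    (U * W * V) i j ∈ Submodule.span A s := by
  rw [Matrix.mul_apply]
  refine Submodule.sum_mem _ fun l _ => ?_
  rw [Matrix.mul_apply, Finset.sum_mul]
  refine Submodule.sum_mem _ fun l' _ => ?_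
  rw [show U i l' * W l' l * V l j = (⟨_, mul_mem (hU i l') (hV l j)⟩ : A) • W l' l by
    show U i l' * W l' l * V l j = (U i l' * V l j) * W l' l
    ring]
  exact Submodule.smul_mem _ _ (Submodule.subset_span (hW l' l))

variable (M M' : Matrix ι ι (MvPolynomial σ k))

/-- The entries of `M` and `M'`. -/
def coordGen (z : Bool × ι × ι) : MvPolynomial σ k := bif z.1 then M' z.2.1 z.2.2 else M z.2.1 z.2.2

/-- The map from the free algebra on the matrix entries. -/
noncomputable def coordMap : MvPolynomial (Bool × ι × ι) k →ₐ[k] MvPolynomial σ k := aeval (coordGen M M')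

/-- The coordinate ring of the image of `M`. -/
noncomputable abbrev coordRing : Subalgebra k (MvPolynomial σ k) := (coordMap M M').range

/-- Its generators. -/
noncomputable def coordVar (z : Bool × ι × ι) : coordRing M M' := (coordMap M M').rangeRestrict (X z)

/-- Its point with parameter `t`. -/
noncomputable def coordEv (t : σ → k) : coordRing M M' →ₐ[k] k := (aeval t).comp (coordRing M M').val

omit [IsAlgClosed k] [Finite σ] [Fintype ι] [DecidableEq ι] in
theorem coordEv_var (t : σ → k) (z : Bool × ι × ι) :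
    coordEv M M' t (coordVar M M' z) = eval t (coordGen M M' z) := by
  show aeval t (coordMap M M' (X z)) = _
  rw [coordMap, aeval_X]
  rfl

omit [IsAlgClosed k] [Finite σ] [Fintype ι] [DecidableEq ι] in
theorem adjoin_coordVar : Algebra.adjoin k (Set.range (coordVar M M')) = ⊤ := by
  have h : Set.range (coordVar M M') = (coordMap M M').rangeRestrict '' Set.range X := by
    rw [← Set.range_comp]; rfl
  rw [h, ← AlgHom.map_adjoin, MvPolynomial.adjoin_range_X, Algebra.map_top]
  exact (AlgHom.range_eq_top _).2 (coordMap M M').rangeRestrict_surjective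

omit [Finite σ] [Fintype ι] [DecidableEq ι] in
theorem eval_eq_zero_iff {r : coordRing M M'} : r = 0 ↔ ∀ t, coordEv M M' t r = 0 :=
  ⟨fun h t => by rw [h, map_zero], fun h => Subtype.ext (MvPolynomial.funext fun t => by
    rw [ZeroMemClass.coe_zero, map_zero]; exact h t)⟩

variable {M M'}

omit [IsAlgClosed k] [Finite σ] in
theorem map_eval_mul (hMM' : M * M' = 1) (t : σ → k) :
    M.map (eval t) * M'.map (eval t) = 1 ∧ M'.map (eval t) * M.map (eval t) = 1 := by
  rw [← Matrix.map_mul, ← Matrix.map_mul, hMM', mul_eq_one_comm.1 hMM',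
    Matrix.map_one _ (map_zero _) (map_one _)]
  exact ⟨rfl, rfl⟩

/-- The point of the group with parameter `t`. -/
noncomputable def coordPt (hMM' : M * M' = 1) (t : σ → k) : GL ι k :=
  ⟨M.map (eval t), M'.map (eval t), (map_eval_mul hMM' t).1, (map_eval_mul hMM' t).2⟩

omit [Finite σ] in
/-- The map `g ↦ g⁻¹ m g^φ` of `G`, on the coordinate ring: injective and integral. -/
theorem exists_twist (hMM' : M * M' = 1) (G : Subgroup (GL ι k))
    (hG : ∀ g : GL ι k, g ∈ G ↔ ∃ t : σ → k, (g : Matrix ι ι k) = M.map (eval t))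
    (φ : k →+* k) (q : ℕ) (hq : 2 ≤ q) (hφ : ∀ x, φ x = x ^ q)
    (hGφ : ∀ g ∈ G, Matrix.GeneralLinearGroup.map φ g ∈ G) {m : GL ι k} (hm : m ∈ G) :
    ∃ ψ : coordRing M M' →ₐ[k] coordRing M M', Function.Injective ψ ∧ ψ.toRingHom.IsIntegral ∧
      ∀ (t s : σ → k), (∀ r, coordEv M M' t (ψ r) = coordEv M M' s r) →
        coordPt hMM' s = (coordPt hMM' t)⁻¹ * m * Matrix.GeneralLinearGroup.map φ (coordPt hMM' t) := by
  classical
  let Xm : Matrix ι ι (coordRing M M') := Matrix.of fun i j => coordVar M M' (false, i, j)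
  let Xm' : Matrix ι ι (coordRing M M') := Matrix.of fun i j => coordVar M M' (true, i, j)
  let cm : Matrix ι ι (coordRing M M') := (m : Matrix ι ι k).map (algebraMap k _)
  let cm' : Matrix ι ι (coordRing M M') := ((m⁻¹ : GL ι k) : Matrix ι ι k).map (algebraMap k _)
  let Y : Matrix ι ι (coordRing M M') := Xm' * cm * Xm.map (· ^ q)
  let Y' : Matrix ι ι (coordRing M M') := Xm'.map (· ^ q) * cm' * Xm
  let yv : Bool × ι × ι → coordRing M M' := fun z => bif z.1 then Y' z.2.1 z.2.2 else Y z.2.1 z.2.2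
  have hevX : ∀ t, Xm.map (coordEv M M' t) = M.map (eval t) ∧ Xm'.map (coordEv M M' t) = M'.map (eval t) :=
    fun t => ⟨Matrix.ext fun i j => coordEv_var M M' t _, Matrix.ext fun i j => coordEv_var M M' t _⟩
  have hcm : ∀ (f : coordRing M M' →ₐ[k] k), cm.map f = (m : Matrix ι ι k) ∧
      cm'.map f = ((m⁻¹ : GL ι k) : Matrix ι ι k) := fun f =>
    ⟨Matrix.ext fun i j => f.commutes _, Matrix.ext fun i j => f.commutes _⟩
  have hpow : ∀ (f : coordRing M M' →ₐ[k] k) (N : Matrix ι ι (coordRing M M')),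
      (N.map (· ^ q)).map f = (N.map f).map φ := fun f N => Matrix.ext fun i j => by simp [hφ]
  obtain ⟨tw, htw⟩ : ∃ tw : (σ → k) → GL ι k,
      ∀ t, tw t = (coordPt hMM' t)⁻¹ * m * Matrix.GeneralLinearGroup.map φ (coordPt hMM' t) :=
    ⟨_, fun t => rfl⟩
  have hYev : ∀ t, Y.map (coordEv M M' t) = ((tw t : GL ι k) : Matrix ι ι k) ∧
      Y'.map (coordEv M M' t) = (((tw t)⁻¹ : GL ι k) : Matrix ι ι k) := by
    intro t
    rw [htw]
    refine ⟨?_, ?_⟩
    · simp only [Y, Matrix.map_mul, hpow, (hcm _).1, (hevX t).1, (hevX t).2]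
      rfl
    · simp only [Y', Matrix.map_mul, hpow, (hcm _).2, (hevX t).1, (hevX t).2, mul_inv_rev, inv_inv,
        ← map_inv, ← mul_assoc]
      rfl
  -- it respects the relations
  have hker : ∀ P, coordMap M M' P = 0 → aeval yv P = 0 := by
    intro P hP
    rw [eval_eq_zero_iff]
    intro t
    rw [← AlgHom.comp_apply, comp_aeval]
    have hpt : coordPt hMM' t ∈ G := (hG _).2 ⟨t, rfl⟩
    obtain ⟨u, hu⟩ := (hG (tw t)).1 (htw t ▸ mul_mem (mul_mem (inv_mem hpt) hm) (hGφ _ hpt))
    have hau : tw t = coordPt hMM' u := Units.ext hu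
    have e : (fun z => coordEv M M' t (yv z)) = fun z => eval u (coordGen M M' z) := funext fun ⟨b, i, j⟩ => by
      cases b
      · show (Y.map (coordEv M M' t)) i j = (M.map (eval u)) i j
        rw [(hYev t).1, hau]
        rfl
      · show (Y'.map (coordEv M M' t)) i j = (M'.map (eval u)) i j
        rw [(hYev t).2, hau]
        rfl
    rw [e]
    have h2 := congrArg (aeval u : MvPolynomial σ k →ₐ[k] k) hP
    rw [map_zero, coordMap, ← AlgHom.comp_apply, comp_aeval] at h2
    exact h2
  obtain ⟨ψ, hψ⟩ := exists_factor (coordMap M M') (aeval yv) hker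
  change coordRing M M' →ₐ[k] coordRing M M' at ψ
  have hψx : ∀ z, ψ (coordVar M M' z) = yv z := fun z => (hψ (X z)).trans (aeval_X _ _)
  have hint : ψ.toRingHom.IsIntegral := by
    refine isIntegral_of_finite_range ψ
      (finite_of_pow_mem (coordVar M M') (adjoin_coordVar M M') ψ.range q hq ?_)
    have hY : ∀ i j, Y i j ∈ ψ.range ∧ Y' i j ∈ ψ.range := fun i j =>
      ⟨⟨_, hψx (false, i, j)⟩, ⟨_, hψx (true, i, j)⟩⟩
    have hc : ∀ i j, cm i j ∈ ψ.range ∧ cm' i j ∈ ψ.range := fun i j =>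
      ⟨ψ.range.algebraMap_mem _, ψ.range.algebraMap_mem _⟩
    have h1 : Xm * Xm' = 1 := by
      refine Matrix.ext fun i j => sub_eq_zero.1 ((eval_eq_zero_iff M M').2 fun t => sub_eq_zero.1 ?_)
      have : ((Xm * Xm').map (coordEv M M' t)) i j = ((1 : Matrix ι ι (coordRing M M')).map (coordEv M M' t)) i j := by
        rw [Matrix.map_mul, (hevX t).1, (hevX t).2, (map_eval_mul hMM' t).1,
          Matrix.map_one _ (map_zero _) (map_one _)]
      rw [sub_zero, map_sub, sub_eq_zero]
      exact this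
    have h2 : cm' * cm = 1 := by
      rw [← Matrix.map_mul, ← Units.val_mul, inv_mul_cancel, Units.val_one,
        Matrix.map_one _ (map_zero _) (map_one _)]
    rintro ⟨_ | _, i, j⟩
    · have h : cm' * Xm * Y = Xm.map (· ^ q) := by
        calc cm' * Xm * Y = cm' * (Xm * Xm') * cm * Xm.map (· ^ q) := by simp only [Y, mul_assoc]
          _ = _ := by rw [h1, mul_one, h2, one_mul]
      rw [show coordVar M M' (false, i, j) ^ q = (cm' * Xm * Y) i j by rw [h]; rfl]
      exact mul_mul_mem_span (s := Set.range (coordVar M M')) _ _ _ _ (fun a b => (hc a b).2) (fun a b => ⟨(false, a, b), rfl⟩)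
        (fun a b => (hY a b).1) i j
    · have h : Y' * Xm' * cm = Xm'.map (· ^ q) := by
        calc Y' * Xm' * cm = Xm'.map (· ^ q) * cm' * (Xm * Xm') * cm := by simp only [Y', mul_assoc]
          _ = _ := by rw [h1, mul_one, mul_assoc, h2, mul_one]
      rw [show coordVar M M' (true, i, j) ^ q = (Y' * Xm' * cm) i j by rw [h]; rfl]
      exact mul_mul_mem_span (s := Set.range (coordVar M M')) _ _ _ _ (fun a b => (hY a b).2) (fun a b => ⟨(true, a, b), rfl⟩)
        (fun a b => (hc a b).1) i j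
  haveI : Algebra.FiniteType k (coordRing M M') :=
    Algebra.FiniteType.of_surjective (coordMap M M').rangeRestrict (coordMap M M').rangeRestrict_surjective
  haveI : IsNoetherianRing (coordRing M M') := Algebra.FiniteType.isNoetherianRing k _
  refine ⟨ψ, endo_injective ψ hint, hint, fun t s hs => Units.ext ?_⟩
  rw [← htw, ← (hYev t).1]
  ext i j
  show eval s (M i j) = (Y.map (coordEv M M' t)) i j
  have h3 := hs (coordVar M M' (false, i, j))
  rw [hψx, coordEv_var] at h3
  exact h3.symm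

/-- Lang's theorem: if the group `G` is the image of the polynomial map `M`, then every element is `a⁻¹ a^σ`. -/
theorem exists_lang (hMM' : M * M' = 1) (G : Subgroup (GL ι k))
    (hG : ∀ g : GL ι k, g ∈ G ↔ ∃ t : σ → k, (g : Matrix ι ι k) = M.map (eval t))
    (φ : k →+* k) (q : ℕ) (hq : 2 ≤ q) (hφ : ∀ x, φ x = x ^ q)
    (hGφ : ∀ g ∈ G, Matrix.GeneralLinearGroup.map φ g ∈ G) {n : GL ι k} (hn : n ∈ G) :
    ∃ a ∈ G, n = a⁻¹ * Matrix.GeneralLinearGroup.map φ a := by
  classical
  obtain ⟨ψ₁, hinj₁, hint₁, hval₁⟩ := exists_twist hMM' G hG φ q hq hφ hGφ (one_mem G)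
  obtain ⟨ψn, hinjn, hintn, hvaln⟩ := exists_twist hMM' G hG φ q hq hφ hGφ hn
  haveI : Algebra.FiniteType k (coordRing M M') :=
    Algebra.FiniteType.of_surjective (coordMap M M').rangeRestrict (coordMap M M').rangeRestrict_surjective
  obtain ⟨h, hh, hdom⟩ := exists_dominant (coordRing M M')
  obtain ⟨a₁, ha₁, c₁, hc₁⟩ := exists_dvd_of_isIntegralElem ψ₁.toRingHom hh (hint₁ h)
  obtain ⟨an, han, cn, hcn⟩ := exists_dvd_of_isIntegralElem ψn.toRingHom hh (hintn h)
  have ha₁0 : a₁ ≠ 0 := fun e => ha₁ (by rw [e, map_zero])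
  have han0 : an ≠ 0 := fun e => han (by rw [e, map_zero])
  obtain ⟨s, hs⟩ : ∃ s : σ → k, coordEv M M' s (a₁ * an) ≠ 0 := by
    by_contra hno
    push Not at hno
    exact mul_ne_zero ha₁0 han0 ((eval_eq_zero_iff M M').2 hno)
  rw [map_mul, mul_ne_zero_iff] at hs
  obtain ⟨χ₁, hχ₁⟩ := exists_lift_point ψ₁ hinj₁ hint₁ (coordEv M M' s)
  obtain ⟨χn, hχn⟩ := exists_lift_point ψn hinjn hintn (coordEv M M' s)
  have hne₁ : χ₁ h ≠ 0 := fun e => hs.1 (by
    rw [← hχ₁ a₁, show ψ₁ a₁ = h * c₁ from hc₁, map_mul, e, zero_mul])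
  have hnen : χn h ≠ 0 := fun e => hs.2 (by
    rw [← hχn an, show ψn an = h * cn from hcn, map_mul, e, zero_mul])
  obtain ⟨t₁, ht₁⟩ := hdom χ₁ hne₁
  obtain ⟨tn, htn⟩ := hdom χn hnen
  have e1 := hval₁ t₁ s fun r => ((ht₁ (ψ₁ r)).symm.trans (hχ₁ r))
  have e2 := hvaln tn s fun r => ((htn (ψn r)).symm.trans (hχn r))
  rw [mul_one] at e1
  have hpt : ∀ t, coordPt hMM' t ∈ G := fun t => (hG _).2 ⟨t, rfl⟩
  refine ⟨coordPt hMM' t₁ * (coordPt hMM' tn)⁻¹, mul_mem (hpt t₁) (inv_mem (hpt tn)), ?_⟩
  have e3 := e1.symm.trans e2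
  rw [map_mul, map_inv]
  calc n = coordPt hMM' tn * ((coordPt hMM' tn)⁻¹ * n * Matrix.GeneralLinearGroup.map φ (coordPt hMM' tn)) *
        (Matrix.GeneralLinearGroup.map φ (coordPt hMM' tn))⁻¹ := by simp [mul_assoc]
    _ = _ := by rw [← e3]; simp [mul_assoc]

end Twist

end Cfsg.Agent.Lang
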